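import Cfsg.Agent.Lib.SymChar.Hooks
import Cfsg.Agent.Lib.SymChar.FixedCount

/-!
# Weight sets of height one
-/

set_option autoImplicit false
set_option linter.unusedSectionVars false
set_option linter.style.haveILetI false

namespace CfsgLib.SymChar

open Equiv Finset
open scoped Nat

variable {p N n : ℕ}

theorem base_eq_sum_range (c : ℕ) : base c = ∑ x ∈ range c, x :=
  Fin.sum_univ_eq_sum_range (fun i => i) c

/-- One row. -/
def rowSet (c e : ℕ) : Finset ℕ := insert (c - 1 + e) (range (c - 1))

theorem rowSet_spec {c e : ℕ} (hc : 1 ≤ c) :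
    rowSet c e ∈ wSets c e ∧ gapProd (rowSet c e) = e ! := by
  obtain ⟨b, rfl⟩ : ∃ b, c = b + 1 := ⟨c - 1, by omega⟩
  have hnot : b + e ∉ range b := fun h => by have := mem_range.1 h; omega
  rw [rowSet, Nat.add_sub_cancel]
  refine ⟨mem_wSets.2 ⟨?_, ?_⟩, ?_⟩
  · rw [card_insert_of_notMem hnot, card_range]
  · rw [sum_insert hnot, ← base_eq_sum_range, base_succ]; omega
  · rw [gapProd, prod_insert hnot, prod_eq_one (s := range b), mul_one]
    · rw [show range (b + e) \ insert (b + e) (range b) = Ico b (b + e) by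
        ext y; simp; omega]
      rw [prod_Ico_eq_prod_range, Nat.add_sub_cancel_left, ← prod_range_sub e]
      exact prod_congr rfl fun y _ => by omega
    · intro x hx
      rw [show range x \ insert (b + e) (range b) = ∅ by
        ext y; have := mem_range.1 hx; simp; omega, prod_empty]

/-- The shape `(2, 1)`. -/
def stairSet (c : ℕ) : Finset ℕ := insert (c + 1) (insert (c - 1) (range (c - 2)))

theorem stairSet_spec {c : ℕ} (hc : 2 ≤ c) :
    stairSet c ∈ wSets c 3 ∧ gapProd (stairSet c) = 3 := by
  obtain ⟨b, rfl⟩ : ∃ b, c = b + 2 := ⟨c - 2, by omega⟩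
  rw [stairSet, show b + 2 + 1 = b + 3 from rfl, show b + 2 - 1 = b + 1 from rfl, Nat.add_sub_cancel]
  have h1 : b + 1 ∉ range b := fun h => by have := mem_range.1 h; omega
  have h2 : b + 3 ∉ insert (b + 1) (range b) := by simp
  refine ⟨mem_wSets.2 ⟨?_, ?_⟩, ?_⟩
  · rw [card_insert_of_notMem h2, card_insert_of_notMem h1, card_range]
  · rw [sum_insert h2, sum_insert h1, ← base_eq_sum_range, show b + 2 = b + 1 + 1 from rfl,
      base_succ, base_succ]
    omega
  · rw [gapProd, prod_insert h2, prod_insert h1, prod_eq_one (s := range b), mul_one,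
      show range (b + 3) \ insert (b + 3) (insert (b + 1) (range b)) = {b, b + 2} by
        ext y; simp; omega,
      show range (b + 1) \ insert (b + 3) (insert (b + 1) (range b)) = {b} by ext y; simp; omega,
      prod_pair (by omega), prod_singleton]
    · simp
    · intro x hx
      rw [show range x \ insert (b + 3) (insert (b + 1) (range b)) = ∅ by
        ext y; have := mem_range.1 hx; simp; omega, prod_empty]

theorem range_spec (c : ℕ) : range c ∈ wSets c 0 ∧ gapProd (range c) = 1 := by
  refine ⟨mem_wSets.2 ⟨card_range c, by rw [add_zero, base_eq_sum_range]⟩, ?_⟩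
  exact prod_eq_one fun x hx => by
    rw [show range x \ range c = ∅ by
      ext y; have := mem_range.1 hx; simp; omega, prod_empty]

variable [hp : Fact p.Prime]

theorem fac_mul_add (a : ℕ) {r : ℕ} (hr : r < p) :
    ((p * a + r)!).factorization p = a + (a !).factorization p := by
  rw [Nat.factorization_def _ hp.out, Nat.factorization_def _ hp.out,
    padicValNat_factorial_mul_add a hr, padicValNat_factorial_mul, add_comm]

/-- A split with one carry. -/
theorem exists_split : ∀ m : ℕ, p ≤ m → m % p + 1 ≠ p → ∃ a b, a + b = m ∧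
    (a !).factorization p + (b !).factorization p + 1 = (m !).factorization p := by
  intro m
  induction m using Nat.strong_induction_on with
  | _ m ih =>
    intro hpm hmod
    have hp2 := hp.out.two_le
    have hr : m % p < p := Nat.mod_lt _ hp.out.pos
    set q := m / p with hq
    set r := m % p with hrdef
    have hm : p * q + r = m := Nat.div_add_mod m p
    have hq1 : 1 ≤ q := Nat.div_pos hpm hp.out.pos
    have hfm : (m !).factorization p = q + (q !).factorization p := by
      rw [← hm]; exact fac_mul_add q hr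
    by_cases hpq : p ∣ q
    · obtain ⟨a, b, hab, hfac⟩ := ih q (Nat.div_lt_self (by omega) hp.out.one_lt)
        (Nat.le_of_dvd hq1 hpq) (by rw [Nat.mod_eq_zero_of_dvd hpq] at *; omega)
      refine ⟨p * a, p * b + r, by rw [← hm, ← hab]; ring, ?_⟩
      rw [hfm, show p * a = p * a + 0 from rfl, fac_mul_add a hp.out.pos, fac_mul_add b hr]
      omega
    · obtain ⟨q', hq'⟩ : ∃ q', q = q' + 1 := ⟨q - 1, by omega⟩
      refine ⟨r + 1, p * q' + (p - 1), by rw [← hm, hq', Nat.mul_succ]; omega, ?_⟩
      have h0 : ((r + 1)!).factorization p = 0 :=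
        Nat.factorization_eq_zero_of_not_dvd fun hd => by
          have := hp.out.dvd_factorial.1 hd; omega
      have hqf : (q !).factorization p = (q' !).factorization p := by
        rw [hq', Nat.factorial_succ, Nat.factorization_mul (by omega) q'.factorial_ne_zero,
          Finsupp.add_apply, Nat.factorization_eq_zero_of_not_dvd (hq' ▸ hpq), zero_add]
      rw [hfm, h0, fac_mul_add q' (by omega), hqf]
      omega

/-- A set with prescribed runners. -/
theorem exists_join {c e : Fin p → ℕ} (hc : ∑ r, c r = N) {w : ℕ} (he : ∑ r, e r = w)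
    (hw : base N + n = coreBase p c + p * w) (A : Fin p → Finset ℕ)
    (hA : ∀ r, A r ∈ wSets (c r) (e r)) :
    ∃ S : ↥(wSets N n), runLen (p := p) (S : Finset ℕ) = c ∧ (∀ r, runner p (S : Finset ℕ) r = A r) ∧
      ∀ r, excess p (S : Finset ℕ) r = e r := by
  haveI : NeZero p := ⟨hp.out.ne_zero⟩
  have hrun : ∀ r, runner p (joinRunners p A) r = A r := runner_joinRunners A
  have hlen : runLen (p := p) (joinRunners p A) = c := funext fun r => by
    rw [runLen, hrun, (mem_wSets.1 (hA r)).1]
  have hmem : joinRunners p A ∈ wSets N n := by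
    refine mem_wSets.2 ⟨?_, ?_⟩
    · rw [card_eq_sum_runner (p := p), ← hc]
      exact sum_congr rfl fun r _ => congrFun hlen r
    · rw [sum_eq_sum_runner (p := p), hw, coreBase, ← he, mul_sum, ← sum_add_distrib]
      exact sum_congr rfl fun r _ => by
        rw [hrun, (mem_wSets.1 (hA r)).1, (mem_wSets.1 (hA r)).2, Nat.mul_add, add_assoc]
  refine ⟨⟨_, hmem⟩, hlen, hrun, fun r => ?_⟩
  rw [excess, hrun, (mem_wSets.1 (hA r)).1, (mem_wSets.1 (hA r)).2]
  omega

theorem excess_flipSet {K : ℕ} {S : Finset ℕ} (hS : S ⊆ range (p * K)) (r : Fin p) :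
    excess p (flipSet (p * K) S) r = excess p S r.rev := by
  haveI : NeZero p := ⟨hp.out.ne_zero⟩
  have h := sum_flipSet (runner_subset (p := p) hS r.rev)
  have hc := card_flipSet (runner_subset (p := p) hS r.rev)
  rw [← runner_flipSet K S r] at h hc
  have h1 := base_le_sum (runner p (flipSet (p * K) S) r)
  have h2 := base_le_sum (runner p S r.rev)
  unfold excess
  rw [hc] at h1 ⊢
  omega

/-- Odd primes: a set of quotient height one. -/
theorem exists_height_one_odd (hp2 : p ≠ 2) {c : Fin p → ℕ} (hc : ∑ r, c r = N) {w : ℕ}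
    (hw : base N + n = coreBase p c + p * w) (hcw : ∀ r, 1 ≤ c r) (hpw : p ≤ w) :
    ∃ S : ↥(wSets N n), runLen (p := p) (S : Finset ℕ) = c ∧
      ∑ r, (gapProd (runner p (S : Finset ℕ) r)).factorization p + 1 = (w !).factorization p := by
  classical
  have hp3 : 3 ≤ p := by have := hp.out.two_le; omega
  obtain ⟨a, b, d, habd, hfac⟩ : ∃ a b d, a + b + d = w ∧ (a !).factorization p +
      (b !).factorization p + (d !).factorization p + 1 = (w !).factorization p := by
    by_cases hm : w % p + 1 = p
    · have hwp : p < w := lt_of_le_of_ne hpw fun h => by rw [← h, Nat.mod_self] at hm; omega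
      obtain ⟨v, rfl⟩ : ∃ v, w = v + 1 := ⟨w - 1, by omega⟩
      have hv : v % p + 1 ≠ p := fun h => by
        have h' : (v + 1) % p = 0 := by
          rw [Nat.add_mod, Nat.one_mod_eq_one.2 (by omega), h, Nat.mod_self]
        omega
      obtain ⟨a, b, hab, h⟩ := exists_split v (by omega) hv
      refine ⟨a, b, 1, by omega, ?_⟩
      rw [Nat.factorial_one, Nat.factorization_one, Finsupp.coe_zero, Pi.zero_apply, add_zero, h,
        Nat.factorial_succ, Nat.factorization_mul (by omega) v.factorial_ne_zero, Finsupp.add_apply,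
        Nat.factorization_eq_zero_of_not_dvd (show ¬ p ∣ v + 1 from fun hd => by
          have := Nat.mod_eq_zero_of_dvd hd; omega), zero_add]
    · obtain ⟨a, b, hab, h⟩ := exists_split w hpw hm
      exact ⟨a, b, 0, by omega, by simpa using h⟩
  let e : Fin p → ℕ := fun r => if (r : ℕ) = 0 then a else if (r : ℕ) = 1 then b else
    if (r : ℕ) = 2 then d else 0
  have key : ∀ f : ℕ → ℕ, f 0 = 0 →
      ∑ r, f (e r) = f a + f b + f d := by
    intro f hf
    rw [← sum_subset (subset_univ ({⟨0, by omega⟩, ⟨1, by omega⟩, ⟨2, by omega⟩} : Finset (Fin p)))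
      fun r _ hr => by
        simp only [mem_insert, mem_singleton, Fin.ext_iff, not_or] at hr
        simp only [e, if_neg hr.1, if_neg hr.2.1, if_neg hr.2.2, hf]]
    rw [sum_insert (by simp [Fin.ext_iff]), sum_pair (by simp [Fin.ext_iff])]
    simp [e, add_assoc]
  obtain ⟨S, hS, hrun, -⟩ := exists_join hc ((key id rfl).trans habd) hw
    (fun r => rowSet (c r) (e r)) fun r => (rowSet_spec (hcw r)).1
  refine ⟨S, hS, ?_⟩
  rw [sum_congr rfl fun r _ => by rw [hrun, (rowSet_spec (hcw r)).2],
    key (fun x => (x !).factorization p) (by simp), hfac]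

end CfsgLib.SymChar

namespace CfsgLib.SymChar

open Equiv Finset
open scoped Nat

variable {N n : ℕ} [Fact (Nat.Prime 2)]

/-- The prime two: a set of quotient height one that is not self-conjugate. -/
theorem exists_height_one_two {c : Fin 2 → ℕ} (hc : ∑ r, c r = N) {w : ℕ}
    (hw : base N + n = coreBase 2 c + 2 * w) (hcw : ∀ r, w ≤ c r) (hw3 : 3 ≤ w) {K : ℕ}
    (hK : ∀ S : ↥(wSets N n), (S : Finset ℕ) ⊆ range (2 * K)) (hKc : c 1 = K - c 0) :
    ∃ S : ↥(wSets N n), runLen (p := 2) (S : Finset ℕ) = c ∧
      flipSet (2 * K) (S : Finset ℕ) ≠ S ∧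
      ∑ r, (gapProd (runner 2 (S : Finset ℕ) r)).factorization 2 + 1 = (w !).factorization 2 := by
  classical
  have hc1 : ∀ r, 1 ≤ c r := fun r => le_trans (by omega) (hcw r)
  have build : ∀ (a b : ℕ) (A : Finset ℕ), A ∈ wSets (c 0) a → a + b = w →
      (gapProd A).factorization 2 + (b !).factorization 2 + 1 = (w !).factorization 2 →
      ∃ S : ↥(wSets N n), runLen (p := 2) (S : Finset ℕ) = c ∧
        excess 2 (S : Finset ℕ) 0 = a ∧ excess 2 (S : Finset ℕ) 1 = b ∧
        runner 2 (S : Finset ℕ) 0 = A ∧ runner 2 (S : Finset ℕ) 1 = rowSet (c 1) b ∧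
        ∑ r, (gapProd (runner 2 (S : Finset ℕ) r)).factorization 2 + 1 = (w !).factorization 2 := by
    intro a b A hA hab hfac
    obtain ⟨S, hS, hrun, hex⟩ := exists_join hc (e := ![a, b]) (w := w)
      (by simpa [Fin.sum_univ_two] using hab) hw ![A, rowSet (c 1) b] (by
        intro r
        fin_cases r
        · simpa using hA
        · simpa using (rowSet_spec (hc1 1)).1)
    refine ⟨S, hS, by simpa using hex 0, by simpa using hex 1, by simpa using hrun 0,
      by simpa using hrun 1, ?_⟩
    rw [Fin.sum_univ_two, hrun 0, hrun 1]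
    simpa [(rowSet_spec (hc1 1)).2] using hfac
  have hne : ∀ S : ↥(wSets N n), excess 2 (S : Finset ℕ) 0 ≠ excess 2 (S : Finset ℕ) 1 →
      flipSet (2 * K) (S : Finset ℕ) ≠ S := fun S h e => h (by
    have := excess_rev (p := 2) (hK S) e (0 : Fin 2)
    rw [show (0 : Fin 2).rev = 1 from rfl] at this
    exact this.symm)
  rcases Nat.mod_two_eq_zero_or_one w with hw2 | hw2
  · obtain ⟨a, b, hab, hfac⟩ := exists_split (p := 2) w (by omega) (by omega)
    obtain ⟨S, hS, h0, h1, hA, hB, hsum⟩ := build a b (rowSet (c 0) a) (rowSet_spec (hc1 0)).1 hab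
      (by rwa [(rowSet_spec (hc1 0)).2])
    refine ⟨S, hS, ?_, hsum⟩
    rcases eq_or_ne a b with rfl | hab'
    · intro e
      have ha2 : 2 ≤ a := by omega
      have hmem : c 1 - 1 + a ∈ flipSet K (runner 2 (S : Finset ℕ) 0) := by
        have h := runner_flipSet (p := 2) K (S : Finset ℕ) 1
        rw [e, show (1 : Fin 2).rev = 0 from rfl, hB] at h
        rw [← h]
        exact mem_insert_self _ _
      obtain ⟨hlt, hnot⟩ := mem_flipSet.1 hmem
      refine hnot ?_
      rw [hA]
      refine mem_insert_of_mem (mem_range.2 ?_)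
      have := hc1 0
      have := hc1 1
      omega
    · exact hne S (by rw [h0, h1]; exact hab')
  · obtain ⟨q, rfl⟩ : ∃ q, w = 2 * q + 1 := ⟨w / 2, by omega⟩
    have hfw : ((2 * q + 1)!).factorization 2 = q + (q !).factorization 2 :=
      fac_mul_add q one_lt_two
    rcases Nat.mod_two_eq_zero_or_one q with hq | hq
    · obtain ⟨a, b, hab, hfac⟩ := exists_split (p := 2) q (by omega) (by omega)
      obtain ⟨S, hS, h0, h1, -, -, hsum⟩ := build (2 * a + 1) (2 * b) (rowSet (c 0) (2 * a + 1))
        (rowSet_spec (hc1 0)).1 (by omega) (by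
          rw [(rowSet_spec (hc1 0)).2, fac_mul_add a one_lt_two, show 2 * b = 2 * b + 0 from rfl,
            fac_mul_add b two_pos, hfw]
          omega)
      exact ⟨S, hS, hne S (by rw [h0, h1]; omega), hsum⟩
    · obtain ⟨u, rfl⟩ : ∃ u, q = u + 1 := ⟨q - 1, by omega⟩
      have hs := stairSet_spec (show 2 ≤ c 0 from le_trans (by omega) (hcw 0))
      obtain ⟨S, hS, h0, h1, -, -, hsum⟩ := build 3 (2 * u) (stairSet (c 0)) hs.1 (by omega) (by
        rw [hs.2, show 2 * u = 2 * u + 0 from rfl, fac_mul_add u two_pos, hfw, Nat.factorial_succ,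
          Nat.factorization_mul (by omega) u.factorial_ne_zero, Finsupp.add_apply,
          Nat.factorization_eq_zero_of_not_dvd (show ¬ 2 ∣ 3 by decide),
          Nat.factorization_eq_zero_of_not_dvd (show ¬ 2 ∣ u + 1 by omega)]
        omega)
      exact ⟨S, hS, hne S (by rw [h0, h1]; omega), hsum⟩

end CfsgLib.SymChar
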