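import Cfsg.Agent.Lib.SymChar.FixedCount

/-!
# Degrees of symmetric group characters

The degree times the product of the gaps `x - y` (`x` in the set, `y < x` outside) is `n !`.
-/

set_option autoImplicit false
set_option linter.unusedSectionVars false
set_option linter.style.haveILetI false

namespace CfsgLib.SymChar

open Equiv Finset MvPolynomial
open scoped Nat

variable {p N n : ℕ}

theorem coeff_pProd_ones : ∀ (n : ℕ) (α : Fin N → ℕ), ∑ i, α i = n →
    coeff (expo α) (pProd N (Multiset.replicate n 1)) * ∏ i, ((α i)! : ℤ) = (n ! : ℤ) := by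
  intro n
  induction n with
  | zero =>
    intro α hα
    have h0 : α = 0 := funext fun i => (sum_eq_zero_iff.1 hα) i (mem_univ i)
    subst h0
    rw [show expo (0 : Fin N → ℕ) = 0 by ext i; rfl]
    simp [pProd]
  | succ n ih =>
    intro α hα
    rw [Multiset.replicate_succ, pProd_cons, psum, sum_mul, coeff_sum, sum_mul]
    have key : ∀ i, coeff (expo α) ((X i : MvPolynomial (Fin N) ℤ) ^ 1 * pProd N (Multiset.replicate n 1)) *
        ∏ j, ((α j)! : ℤ) = (α i : ℤ) * (n ! : ℤ) := by
      intro i
      rw [X_pow_eq_monomial, coeff_monomial_mul']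
      rcases Nat.eq_zero_or_pos (α i) with h0 | h0
      · rw [if_neg fun h => absurd (Finsupp.single_le_iff.1 h : 1 ≤ α i) (by omega), h0]
        simp
      · rw [if_pos (Finsupp.single_le_iff.2 h0), one_mul]
        set α' := Function.update α i (α i - 1) with hα'
        have he : expo α - Finsupp.single i 1 = expo α' := by
          ext a
          rcases eq_or_ne a i with rfl | ha
          · simp [hα', expo]
          · simp [hα', expo, ha]
        have hsum : ∑ a, α' a = n := by
          rw [hα', sum_update_of_mem (mem_univ i), ← erase_eq]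
          have := add_sum_erase univ α (mem_univ i)
          omega
        have hprod : ∏ j, ((α j)! : ℤ) = (α i : ℤ) * ∏ j, ((α' j)! : ℤ) := by
          rw [← mul_prod_erase _ _ (mem_univ i),
            ← mul_prod_erase univ (fun j => ((α' j)! : ℤ)) (mem_univ i), hα',
            Function.update_self, ← mul_assoc]
          congr 1
          · rw [← Nat.cast_mul, Nat.mul_factorial_pred (by omega)]
          · exact prod_congr rfl fun j hj => by
              rw [Function.update_of_ne (ne_of_mem_erase hj)]
        rw [he, hprod, ← ih α' hsum]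
        ring
    rw [sum_congr rfl fun i _ => key i, ← sum_mul, ← Nat.cast_sum, hα, ← Nat.cast_mul,
      Nat.factorial_succ]

/-- The degree formula for tuples. -/
theorem F_ones_mul_prod {β : Fin N → ℕ} (hsum : ∑ i, β i = base N + n) :
    F (Multiset.replicate n 1) β * ∏ i, ((β i)! : ℤ) =
      (n ! : ℤ) * (Matrix.vandermonde fun i => (β i : ℤ)).det := by
  rw [Matrix.det_eval_matrixOfPolynomials_eq_det_vandermonde (fun i => (β i : ℤ))
    (fun i : Fin N => descPochhammer ℤ i) (fun i => descPochhammer_natDegree _ _)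
    (fun i => monic_descPochhammer _ _), Matrix.det_apply', mul_sum, F, coeff_delta_mul, sum_mul]
  refine sum_congr rfl fun σ _ => ?_
  simp only [Matrix.of_apply, Int.cast_id, descPochhammer_eval_eq_descFactorial]
  have hprod : ∏ i, ((β (σ i)).descFactorial (i : ℕ) : ℤ) =
      ∏ i, ((β i).descFactorial (σ.symm i : ℕ) : ℤ) :=
    (Fintype.prod_equiv σ _ _ fun i => by simp)
  rw [hprod]
  by_cases h : ∀ i, (σ.symm i : ℕ) ≤ β i
  · rw [if_pos h]
    have hs : ∑ i, (β i - (σ.symm i : ℕ)) = n := by
      have h1 : ∑ i, (σ.symm i : ℕ) = base N := Equiv.sum_comp σ.symm fun i : Fin N => (i : ℕ)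
      have h2 : ∑ i, ((β i - (σ.symm i : ℕ)) + (σ.symm i : ℕ)) = ∑ i, β i :=
        sum_congr rfl fun i _ => Nat.sub_add_cancel (h i)
      rw [sum_add_distrib] at h2
      omega
    have h3 : ∏ i, ((β i)! : ℤ) = (∏ i, ((β i - (σ.symm i : ℕ))! : ℤ)) *
        ∏ i, ((β i).descFactorial (σ.symm i : ℕ) : ℤ) := by
      rw [← prod_mul_distrib]
      refine prod_congr rfl fun i _ => ?_
      rw [← Nat.cast_mul, Nat.factorial_mul_descFactorial (h i)]
    rw [h3, ← coeff_pProd_ones n _ hs]
    ring
  · rw [if_neg h]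
    push Not at h
    obtain ⟨i, hi⟩ := h
    rw [prod_eq_zero (s := univ) (f := fun i => ((β i).descFactorial (σ.symm i : ℕ) : ℤ)) (mem_univ i)
      (by rw [Nat.descFactorial_eq_zero_iff_lt.2 hi]; rfl)]
    ring

/-- The product of the gaps. -/
def gapProd (S : Finset ℕ) : ℕ := ∏ x ∈ S, ∏ y ∈ range x \ S, (x - y)

theorem gapProd_ne_zero (S : Finset ℕ) : gapProd S ≠ 0 :=
  prod_ne_zero_iff.2 fun x _ => prod_ne_zero_iff.2 fun y hy => by
    have := mem_range.1 (mem_sdiff.1 hy).1
    omega

theorem prod_range_sub (x : ℕ) : ∏ y ∈ range x, (x - y) = x ! := by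
  rw [← prod_range_reflect, ← prod_range_add_one_eq_factorial]
  refine prod_congr rfl fun y hy => ?_
  have := mem_range.1 hy
  omega

/-- The degree times the gaps. -/
theorem F_ones_mul_gapProd (S : ↥(wSets N n)) :
    F (Multiset.replicate n 1) (tup S) * (gapProd (S : Finset ℕ) : ℤ) = (n ! : ℤ) := by
  classical
  set β := tup S with hβ
  have hinj : Function.Injective β := (strictMono_tup S).injective
  have hfac : ∏ i, ((β i)! : ℤ) =
      (∏ i, ∏ j ∈ Ioi i, ((β j : ℤ) - β i)) * (gapProd (S : Finset ℕ) : ℤ) := by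
    have h1 : ∏ i, ∏ j ∈ Ioi i, ((β j : ℤ) - β i) =
        ((∏ x ∈ (S : Finset ℕ), ∏ y ∈ range x ∩ (S : Finset ℕ), (x - y) : ℕ) : ℤ) := by
      rw [prod_comm' (t' := univ) (s' := fun j => Iio j) (by simp)]
      conv_rhs => rw [← image_tup S, prod_image fun a _ b _ e => hinj e]
      rw [Nat.cast_prod]
      refine prod_congr rfl fun j _ => ?_
      rw [show range (β j) ∩ univ.image β = (Iio j).image β by
        ext y
        simp only [mem_inter, mem_range, mem_image, mem_univ, true_and, mem_Iio]
        constructor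
        · rintro ⟨h, i, rfl⟩
          exact ⟨i, (strictMono_tup S).lt_iff_lt.1 h, rfl⟩
        · rintro ⟨i, hi, rfl⟩
          exact ⟨strictMono_tup S hi, i, rfl⟩,
        prod_image fun a _ b _ e => hinj e, Nat.cast_prod]
      refine prod_congr rfl fun i hi => ?_
      rw [Nat.cast_sub (strictMono_tup S (mem_Iio.1 hi)).le]
    rw [h1, gapProd, ← Nat.cast_mul, ← prod_mul_distrib, ← Nat.cast_prod]
    congr 1
    conv_rhs => rw [← image_tup S, prod_image fun a _ b _ e => hinj e]
    refine prod_congr rfl fun i _ => ?_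
    rw [prod_inter_mul_prod_sdiff, prod_range_sub]
  have h := F_ones_mul_prod (n := n) (β := β) (sum_tup S)
  rw [Matrix.det_vandermonde, hfac] at h
  have h0 : (∏ i, ∏ j ∈ Ioi i, ((β j : ℤ) - β i)) ≠ 0 :=
    prod_ne_zero_iff.2 fun i _ => prod_ne_zero_iff.2 fun j hj => sub_ne_zero.2 fun e =>
      (mem_Ioi.1 hj).ne' (hinj (by exact_mod_cast e))
  refine mul_left_cancel₀ h0 ?_
  rw [mul_left_comm, h]
  ring

/-- The degree is a natural number at the identity. -/
theorem degree_formula (S : ↥(wSets N n)) :
    ∃ d : ℕ, F (Multiset.replicate n 1) (tup S) = (d : ℤ) ∧ d * gapProd (S : Finset ℕ) = n ! := by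
  have h := F_ones_mul_gapProd S
  have hg := Nat.pos_of_ne_zero (gapProd_ne_zero (S : Finset ℕ))
  have hpos : 0 ≤ F (Multiset.replicate n 1) (tup S) := by
    by_contra hneg
    have := mul_neg_of_neg_of_pos (not_le.1 hneg) (Nat.cast_pos.2 hg : (0 : ℤ) < gapProd (S : Finset ℕ))
    have := n.factorial_pos
    omega
  obtain ⟨d, hd⟩ := Int.eq_ofNat_of_zero_le hpos
  exact ⟨d, hd, by rw [hd] at h; exact_mod_cast h⟩

theorem gapProd_dvd {S : Finset ℕ} (hS : S ∈ wSets N n) : gapProd S ∣ n ! := by
  obtain ⟨d, -, hd⟩ := degree_formula ⟨S, hS⟩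
  exact ⟨d, by rw [← hd, mul_comm]⟩

/-- The gaps of a set count its excess. -/
theorem sum_card_gaps (R : Finset ℕ) :
    ∑ x ∈ R, (range x \ R).card + base R.card = ∑ x ∈ R, x := by
  induction R using Finset.induction_on_max with
  | empty => simp [base]
  | insert x A hlt ih =>
    have hx : x ∉ A := fun h => lt_irrefl x (hlt x h)
    have hA : A ⊆ range x := fun a ha => mem_range.2 (hlt a ha)
    rw [sum_insert hx, sum_insert hx, card_insert_of_notMem hx, base_succ]
    have h1 : (range x \ insert x A).card = x - A.card := by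
      rw [show range x \ insert x A = range x \ A by ext a; simp; omega,
        card_sdiff_of_subset hA, card_range]
    have h2 : ∀ a ∈ A, range a \ insert x A = range a \ A := fun a ha => by
      have := hlt a ha
      ext b; simp; omega
    rw [h1, sum_congr rfl fun a ha => congrArg card (h2 a ha)]
    have := card_le_card hA
    rw [card_range] at this
    omega

theorem excess_eq_sum_gaps (S : Finset ℕ) (r : Fin p) :
    excess p S r = ∑ x ∈ runner p S r, (range x \ runner p S r).card := by
  have h := sum_card_gaps (runner p S r)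
  rw [excess]
  omega

variable [hp : Fact p.Prime]

/-- The valuation of the gaps runner by runner. -/
theorem factorization_gapProd (S : Finset ℕ) :
    (gapProd S).factorization p =
      ∑ r : Fin p, (excess p S r + (gapProd (runner p S r)).factorization p) := by
  classical
  haveI : NeZero p := ⟨hp.out.ne_zero⟩
  have hp0 := hp.out.pos
  have hval : ∀ (T : Finset ℕ) (x : ℕ), (∏ y ∈ range x \ T, (x - y)).factorization p =
      ∑ y ∈ range x \ T, (x - y).factorization p := by
    intro T x
    rw [Nat.factorization_prod fun y hy => by have := mem_range.1 (mem_sdiff.1 hy).1; omega,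
      Finsupp.finsetSum_apply]
  have hH : ∀ T : Finset ℕ, (gapProd T).factorization p =
      ∑ x ∈ T, ∑ y ∈ range x \ T, (x - y).factorization p := by
    intro T
    rw [gapProd, Nat.factorization_prod fun x _ => prod_ne_zero_iff.2 fun y hy => by
      have := mem_range.1 (mem_sdiff.1 hy).1; omega, Finsupp.finsetSum_apply]
    exact sum_congr rfl fun x _ => hval T x
  rw [hH]
  conv_lhs => arg 1; rw [← joinRunners_runner (p := p) S, joinRunners]
  rw [sum_biUnion]
  swap
  · intro r _ r' _ hne
    rw [Function.onFun, disjoint_left]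
    intro x hx hx'
    obtain ⟨a, -, rfl⟩ := mem_image.1 hx
    obtain ⟨b, -, e⟩ := mem_image.1 hx'
    refine hne (Fin.ext ?_)
    have := congrArg (fun z => z % p) e
    simpa [Nat.mul_add_mod, Nat.mod_eq_of_lt r.2, Nat.mod_eq_of_lt r'.2] using this.symm
  refine sum_congr rfl fun r _ => ?_
  rw [excess_eq_sum_gaps, hH, sum_image fun a _ b _ e =>
    Nat.eq_of_mul_eq_mul_left hp0 (Nat.add_right_cancel e), ← sum_add_distrib]
  refine sum_congr rfl fun q _ => ?_
  rw [card_eq_sum_ones, ← sum_add_distrib]
  -- only the gaps on the same runner count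
  rw [← sum_filter_add_sum_filter_not (range (p * q + r) \ S) (fun y => y % p = (r : ℕ))]
  have hzero : ∑ y ∈ (range (p * q + r) \ S).filter (fun y => ¬ y % p = (r : ℕ)),
      (p * q + r - y).factorization p = 0 := sum_eq_zero fun y hy => by
    obtain ⟨hy1, hy2⟩ := mem_filter.1 hy
    have hlt := mem_range.1 (mem_sdiff.1 hy1).1
    refine Nat.factorization_eq_zero_of_not_dvd fun hd => hy2 ?_
    have h := (Nat.modEq_iff_dvd' hlt.le).2 hd
    rw [Nat.ModEq, Nat.mul_add_mod, Nat.mod_eq_of_lt r.2] at h
    exact h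
  rw [hzero, add_zero]
  refine sum_bij' (fun y _ => y / p) (fun b _ => p * b + r) (fun y hy => ?_) (fun b hb => ?_)
    (fun y hy => ?_) (fun b _ => ?_) fun y hy => ?_
  · obtain ⟨hy1, hy2⟩ := mem_filter.1 hy
    obtain ⟨hy3, hy4⟩ := mem_sdiff.1 hy1
    have hlt := mem_range.1 hy3
    refine mem_sdiff.2 ⟨mem_range.2 ?_, fun h => hy4 ?_⟩
    · have := Nat.div_add_mod y p
      by_contra hge
      have := Nat.mul_le_mul_left p (not_lt.1 hge)
      omega
    · obtain ⟨z, hz, hzy⟩ := mem_image.1 h
      obtain ⟨hz1, hz2⟩ := mem_filter.1 hz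
      rw [← Nat.div_add_mod y p, hy2, ← hzy, ← hz2, Nat.div_add_mod]
      exact hz1
  · obtain ⟨hb1, hb2⟩ := mem_sdiff.1 hb
    have := Nat.mul_lt_mul_of_pos_left (mem_range.1 hb1) hp0
    have hmod : (p * b + (r : ℕ)) % p = (r : ℕ) := by
      rw [Nat.mul_add_mod, Nat.mod_eq_of_lt r.2]
    have hdiv : (p * b + (r : ℕ)) / p = b := by
      rw [Nat.mul_add_div hp0, Nat.div_eq_of_lt r.2, add_zero]
    refine mem_filter.2 ⟨mem_sdiff.2 ⟨mem_range.2 (by omega), fun h => hb2 ?_⟩, hmod⟩
    exact mem_image.2 ⟨_, mem_filter.2 ⟨h, hmod⟩, hdiv⟩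
  · obtain ⟨-, hy2⟩ := mem_filter.1 hy
    show p * (y / p) + (r : ℕ) = y
    rw [← hy2, Nat.div_add_mod]
  · show (p * b + (r : ℕ)) / p = b
    rw [Nat.mul_add_div hp0, Nat.div_eq_of_lt r.2, add_zero]
  · obtain ⟨hy1, hy2⟩ := mem_filter.1 hy
    have hlt := mem_range.1 (mem_sdiff.1 hy1).1
    have hy' := Nat.div_add_mod y p
    have hyq : y / p < q := by
      by_contra hge
      have := Nat.mul_le_mul_left p (not_lt.1 hge)
      omega
    rw [show p * q + (r : ℕ) - y = p * (q - y / p) by rw [Nat.mul_sub]; omega,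
      Nat.factorization_mul hp0.ne' (by omega), Finsupp.add_apply, hp.out.factorization_self]

/-- The valuation of the gaps under a core. -/
theorem factorization_gapProd_core {S : Finset ℕ} (hS : S ∈ wSets N n) {w : ℕ}
    (hw : base N + n = coreBase p (runLen (p := p) S) + p * w) :
    (gapProd S).factorization p = w + ∑ r, (gapProd (runner p S r)).factorization p := by
  haveI : NeZero p := ⟨hp.out.ne_zero⟩
  rw [factorization_gapProd, sum_add_distrib, sum_excess hS hw]

theorem sum_factorization_runner_le {S : Finset ℕ} (hS : S ∈ wSets N n) {w : ℕ}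
    (hw : base N + n = coreBase p (runLen (p := p) S) + p * w) :
    ∑ r, (gapProd (runner p S r)).factorization p ≤ (w !).factorization p := by
  haveI : NeZero p := ⟨hp.out.ne_zero⟩
  have hdvd : ∏ r, gapProd (runner p S r) ∣ w ! := by
    refine (prod_dvd_prod_of_dvd _ _ fun r _ => gapProd_dvd (runner_mem_wSets rfl r)).trans ?_
    rw [← sum_excess hS hw]
    exact Nat.prod_factorial_dvd_factorial_sum univ _
  have h := (Nat.factorization_le_iff_dvd
    (prod_ne_zero_iff.2 fun r _ => gapProd_ne_zero _) w.factorial_ne_zero).2 hdvd p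
  rwa [Nat.factorization_prod fun r _ => gapProd_ne_zero _, Finsupp.finsetSum_apply] at h

theorem factorization_factorial_mul_prime (w : ℕ) :
    ((p * w)!).factorization p = w + (w !).factorization p := by
  rw [Nat.factorization_def _ hp.out, Nat.factorization_def _ hp.out, padicValNat_factorial_mul,
    add_comm]

end CfsgLib.SymChar
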