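import Cfsg.Agent.Lib.SymChar.Wreath
import Cfsg.Agent.Lib.SymChar.Hooks

/-!
# Sylow subgroups of alternating groups on `p w` points and their characters of degree `p`
-/

set_option autoImplicit false
set_option linter.unusedSectionVars false
set_option linter.style.haveILetI false

namespace CfsgLib.SymChar.Wreath

open Equiv Finset Cfsg
open scoped Nat

variable {p : ℕ} [hp : Fact p.Prime]

/-- Exponent of the order of a Sylow subgroup of the alternating group on `p w` points. -/
def altExp (p w : ℕ) : ℕ := ((p * w)!).factorization p - (if p = 2 then 1 else 0)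

theorem exists_sylow_perm (w : ℕ) :
    ∃ Q : Subgroup (Perm (Fin w)), IsPGroup p Q ∧
      Nat.card Q = p ^ (w !).factorization p := by
  classical
  obtain ⟨S⟩ := (inferInstance : Nonempty (Sylow p (Perm (Fin w))))
  exact ⟨S, S.2, by rw [S.card_eq_multiplicity, Nat.card_perm, Nat.card_fin]⟩

theorem exists_moved {w : ℕ} {Q : Subgroup (Perm (Fin w))} {k : ℕ}
    (hcard : Nat.card Q = p ^ k) (hk : k ≠ 0) : ∃ i₀ : Fin w, ∃ σ ∈ Q, σ i₀ ≠ i₀ := by
  by_contra hall
  push Not at hall
  have : Q = ⊥ := (Subgroup.eq_bot_iff_forall _).2 fun σ hσ => Equiv.ext fun i => hall i σ hσ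
  rw [this, Subgroup.card_bot] at hcard
  exact hk ((Nat.pow_eq_one.1 hcard.symm).resolve_left hp.out.ne_one)

theorem one_le_factorization_factorial {w : ℕ} (hw : p ≤ w) : 1 ≤ (w !).factorization p :=
  hp.out.factorization_pos_of_dvd w.factorial_ne_zero (hp.out.dvd_factorial.2 hw)

/-- A Sylow subgroup of the symmetric group on `p w` points has a character of degree `p`. -/
theorem exists_sylow_symm_degree {w : ℕ} (hw : p ≤ w) :
    ∃ P : Subgroup (Perm (Fin w × ZMod p)), IsPGroup p P ∧
      Nat.card P = p ^ ((p * w)!).factorization p ∧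
      ∃ χ : IrrCharacter ↥P, charDegree (χ : ↥P → ℂ) = p := by
  classical
  haveI : NeZero p := ⟨hp.out.ne_zero⟩
  obtain ⟨Q, hQ, hcard⟩ := exists_sylow_perm (p := p) w
  obtain ⟨i₀, hmove⟩ := exists_moved hcard (by have := one_le_factorization_factorial (p := p) hw; omega)
  refine ⟨wreath p Q, isPGroup_wreath hQ, ?_, ?_⟩
  · rw [card_wreath, hcard, ← pow_add, factorization_factorial_mul_prime, add_comm]
  · exact exists_degree_prime_wreath hQ le_rfl inf_le_left hmove
      fun _ => Or.inr (onTop_mul_shift_mem Q.one_mem _)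

theorem sign_eq_one_of_odd {α : Type*} [Fintype α] [DecidableEq α] (h2 : p ≠ 2)
    {P : Subgroup (Perm α)} (hP : IsPGroup p P) {π : Perm α} (hπ : π ∈ P) :
    Perm.sign π = 1 := by
  obtain ⟨k, hk⟩ := IsPGroup.iff_orderOf.1 hP ⟨π, hπ⟩
  rw [Subgroup.orderOf_mk] at hk
  have h := congrArg Perm.sign (pow_orderOf_eq_one π)
  rw [map_pow, map_one, hk] at h
  rcases Int.units_eq_one_or (Perm.sign π) with h' | h'
  · exact h'
  · rw [h', Odd.neg_one_pow (hp.out.odd_of_ne_two h2).pow] at h
    exact absurd h (by decide)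

theorem card_inf_alt {w : ℕ} {Q : Subgroup (Perm (Fin w))}
    (hQ : IsPGroup p Q) (hcard : Nat.card Q = p ^ (w !).factorization p) :
    Nat.card (wreath p Q ⊓ alternatingGroup (Fin w × ZMod p) : Subgroup _) = p ^ altExp p w := by
  classical
  haveI : NeZero p := ⟨hp.out.ne_zero⟩
  have hW : Nat.card (wreath p Q) = p ^ ((p * w)!).factorization p := by
    rw [card_wreath, hcard, ← pow_add, factorization_factorial_mul_prime, add_comm]
  by_cases h2 : p = 2
  · rcases Nat.eq_zero_or_pos w with rfl | hw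
    · rw [altExp, Nat.mul_zero, Nat.factorial_zero, Nat.factorization_one, Finsupp.coe_zero,
        Pi.zero_apply, Nat.zero_sub, pow_zero, Subgroup.card_eq_one, eq_bot_iff]
      exact fun π _ => Equiv.ext fun z => Fin.elim0 z.1
    · have h := card_wreath_inf_alt_two h2 hw Q
      rw [hW] at h
      rw [altExp, if_pos h2]
      subst h2
      have hE : ((2 * w)!).factorization 2 = ((2 * w)!).factorization 2 - 1 + 1 := by
        have := factorization_factorial_mul_prime (p := 2) w
        omega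
      rw [hE, pow_succ, mul_comm] at h
      exact Nat.eq_of_mul_eq_mul_right two_pos h
  · rw [altExp, if_neg h2, Nat.sub_zero, ← hW]
    refine congrArg (fun H : Subgroup _ => Nat.card H) (inf_eq_left.2 fun π hπ => ?_)
    rw [Perm.mem_alternatingGroup]
    exact sign_eq_one_of_odd h2 (isPGroup_wreath hQ) hπ

/-- A Sylow subgroup of the alternating group on `p w` points, with a character of degree `p`
when it is not abelian. -/
theorem exists_sylow_alt (w : ℕ) :
    ∃ P : Subgroup (Perm (Fin w × ZMod p)), IsPGroup p P ∧ (∀ π ∈ P, Perm.sign π = 1) ∧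
      Nat.card P = p ^ altExp p w ∧
      ((p ≠ 2 ∧ p ≤ w) ∨ (p = 2 ∧ 3 ≤ w) → ∃ χ : IrrCharacter ↥P, charDegree (χ : ↥P → ℂ) = p) := by
  classical
  haveI : NeZero p := ⟨hp.out.ne_zero⟩
  have hsign : ∀ (Q : Subgroup (Perm (Fin w))),
      ∀ π ∈ wreath p Q ⊓ alternatingGroup (Fin w × ZMod p), Perm.sign π = 1 :=
    fun Q π hπ => Perm.mem_alternatingGroup.1 hπ.2
  by_cases hev : p = 2 ∧ 4 ≤ w ∧ Even w
  · -- inflate from the symmetric group on `w / 2` pairs
    obtain ⟨hp2, hw4, w', rfl⟩ := hev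
    subst hp2
    obtain ⟨R, hR, hRcard, χ, hχ⟩ := exists_sylow_symm_degree (p := 2) (w := w') (by omega)
    have e : Fintype.card (Fin w' × ZMod 2) = Fintype.card (Fin (w' + w')) := by
      rw [Fintype.card_prod, Fintype.card_fin, ZMod.card, Fintype.card_fin]; omega
    set E := (Fintype.equivOfCardEq e).permCongrHom with hE
    set Q := R.map (E : Perm (Fin w' × ZMod 2) →* Perm (Fin (w' + w'))) with hQdef
    have hQ : IsPGroup 2 Q := hR.map _
    have hQcard : Nat.card Q = 2 ^ ((w' + w')!).factorization 2 := by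
      rw [hQdef, Subgroup.card_map_of_injective E.injective, hRcard, two_mul]
    refine ⟨wreath 2 Q ⊓ alternatingGroup _, (isPGroup_wreath hQ).to_le inf_le_left, hsign Q,
      card_inf_alt hQ hQcard, fun _ => ?_⟩
    obtain ⟨χ', hχ'⟩ : ∃ χ' : IrrCharacter ↥Q, charDegree (χ' : ↥Q → ℂ) = 2 :=
      exists_degree_comp ((R.equivMapOfInjective _ E.injective).symm.toMonoidHom)
        (MulEquiv.surjective _) χ hχ
    refine exists_degree_comp ((top Q).comp (Subgroup.inclusion inf_le_left))
      (fun σ => ?_) χ' hχ'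
    refine ⟨⟨_, onTop_mul_shift_mem σ.2 0, Perm.mem_alternatingGroup.2 ?_⟩,
      Subtype.ext (top_mk σ.2 0).1⟩
    convert sign_onTop_mul_shift (σ : Perm (Fin (w' + w'))) (0 : Fin (w' + w') → ZMod 2)
    rw [Int.units_sq, one_mul]
    exact (prod_eq_one fun i _ => by rw [Pi.zero_apply, Equiv.addRight_zero]; exact map_one _).symm
  obtain ⟨Q, hQ, hcard⟩ := exists_sylow_perm (p := p) w
  refine ⟨wreath p Q ⊓ alternatingGroup _, (isPGroup_wreath hQ).to_le inf_le_left, hsign Q,
    card_inf_alt hQ hcard, fun hcase => ?_⟩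
  have hpw : p ≤ w := by rcases hcase with ⟨-, h⟩ | ⟨rfl, h⟩ <;> omega
  obtain ⟨i₀, hmove⟩ := exists_moved hcard (by have := one_le_factorization_factorial (p := p) hpw; omega)
  refine exists_degree_prime_wreath hQ inf_le_left le_rfl hmove fun h2 => Or.inl ?_
  subst h2
  -- an orbit has two-power size and `w` is odd
  have hw3 : 3 ≤ w := by
    rcases hcase with ⟨h, -⟩ | ⟨-, h⟩
    · exact absurd rfl h
    · exact h
  have hodd : ¬ Even w := fun he => hev ⟨rfl, by obtain ⟨a, rfl⟩ := he; omega, he⟩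
  by_contra hall
  push Not at hall
  have horb : MulAction.orbit Q i₀ = Set.univ := by
    rw [Set.eq_univ_iff_forall]
    intro j
    obtain ⟨σ, hσ, hσj⟩ := hall j
    exact ⟨⟨σ, hσ⟩, hσj⟩
  have hd := MulAction.index_stabilizer Q i₀
  rw [horb, Set.ncard_univ, Nat.card_fin] at hd
  have hdvd : w ∣ 2 ^ (w !).factorization 2 := by
    have h3 := Subgroup.index_dvd_card (MulAction.stabilizer Q i₀)
    rw [hd, hcard] at h3
    exact h3
  obtain ⟨j, -, hj⟩ := (Nat.dvd_prime_pow Nat.prime_two).1 hdvd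
  rcases Nat.eq_zero_or_pos j with rfl | hj0
  · omega
  · exact hodd (hj ▸ (Nat.even_pow.2 ⟨even_two, hj0.ne'⟩))

end CfsgLib.SymChar.Wreath
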