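import Cfsg.Agent.Lib.SymChar.DefectShape
import Cfsg.Agent.Lib.SymChar.SylowChar
import Cfsg.Agent.Lib.SymChar.HeightExamples
import Cfsg.Agent.Lib.Blocks.InducedDefect
import Cfsg.Agent.Lib.SymChar.AltMain

/-!
# Heights in blocks of alternating groups
-/

set_option autoImplicit false
set_option linter.unusedSectionVars false
set_option linter.style.haveILetI false

namespace CfsgLib.SymChar

open Equiv Finset Cfsg CfsgLib.CharTheory CfsgLib.Blocks
open scoped Nat

variable {p N n : ℕ} [hp : Fact p.Prime]

theorem factorization_card_alt (hn : 2 ≤ n) :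
    (Nat.card (alternatingGroup (Fin n))).factorization p + (if p = 2 then 1 else 0) =
      (n !).factorization p := by
  rw [← two_mul_card_alt hn, Nat.factorization_mul two_ne_zero Nat.card_pos.ne', Finsupp.add_apply,
    add_comm, Nat.Prime.factorization Nat.prime_two, Finsupp.single_apply]
  congr 1
  exact if_congr eq_comm rfl rfl

theorem factorization_charDegree_over (hN : n ≤ N) (hn : 2 ≤ n) {S : ↥(wSets N n)}
    {χ : IrrCharacter ↥(alternatingGroup (Fin n))} (h : Over S χ) {w : ℕ}
    (hw : base N + n = coreBase p (runLen (p := p) (S : Finset ℕ)) + p * w) :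
    (charDegree (χ : alternatingGroup (Fin n) → ℂ)).factorization p +
      (if p = 2 ∧ flipW hN S = S then 1 else 0) +
        (w + ∑ r, (gapProd (runner p (S : Finset ℕ) r)).factorization p) = (n !).factorization p := by
  classical
  rw [← factorization_charDegree_chi S, ← factorization_gapProd_core S.2 hw,
    ← charDegree_over hN hn h]
  have h0 : charDegree (χ : alternatingGroup (Fin n) → ℂ) ≠ 0 := charDegree_ne_zero' χ
  congr 1
  by_cases hfix : flipW hN S = S
  · rw [if_pos hfix, Nat.factorization_mul two_ne_zero h0, Finsupp.add_apply, add_comm]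
    congr 1
    rw [Nat.Prime.factorization Nat.prime_two, Finsupp.single_apply]
    exact if_congr ⟨fun h => h.1.symm, fun h => ⟨h.symm, hfix⟩⟩ rfl rfl
  · rw [if_neg hfix, one_mul, if_neg fun h => hfix h.2, add_zero]

/-- Self-conjugate sets lose one from the top valuation at `2`. -/
theorem sum_factorization_fixed_lt {K : ℕ} {S : Finset ℕ} (hS : S ∈ wSets N n)
    (hsub : S ⊆ range (2 * K)) (hfix : flipSet (2 * K) S = S) {w : ℕ} (hw0 : w ≠ 0)
    (hw : base N + n = coreBase 2 (runLen (p := 2) S) + 2 * w) :
    ∑ r, (gapProd (runner 2 S r)).factorization 2 < (w !).factorization 2 := by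
  haveI : Fact (Nat.Prime 2) := ⟨Nat.prime_two⟩
  have he := sum_excess hS hw
  have hrev := excess_rev hsub hfix (0 : Fin 2)
  rw [show (0 : Fin 2).rev = 1 from rfl] at hrev
  rw [Fin.sum_univ_two, hrev] at he
  set e := excess 2 S 0 with hedef
  have hle : ∀ r, (gapProd (runner 2 S r)).factorization 2 ≤ (e !).factorization 2 := by
    intro r
    have h : excess 2 S r = e := by fin_cases r <;> first | rfl | exact hrev
    refine (Nat.factorization_le_iff_dvd (gapProd_ne_zero _) e.factorial_ne_zero).2 ?_ 2
    have h' := gapProd_dvd (runner_mem_wSets (c := runLen (p := 2) S) rfl r)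
    rwa [h] at h'
  obtain ⟨e', he'⟩ : ∃ e', e = e' + 1 := ⟨e - 1, by omega⟩
  have hcb : 1 ≤ (Nat.centralBinom e).factorization 2 :=
    Nat.prime_two.factorization_pos_of_dvd (Nat.centralBinom_ne_zero e)
      (he' ▸ Nat.two_dvd_centralBinom_succ e')
  have hfac : (Nat.centralBinom e).factorization 2 + (e !).factorization 2 + (e !).factorization 2 =
      (w !).factorization 2 := by
    rw [← he, Nat.centralBinom, two_mul, ← Nat.choose_mul_factorial_mul_factorial
      (Nat.le_add_left e e), Nat.add_sub_cancel, Nat.factorization_mul (Nat.mul_ne_zero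
        (Nat.choose_pos (Nat.le_add_left e e)).ne' e.factorial_ne_zero) e.factorial_ne_zero,
      Nat.factorization_mul (Nat.choose_pos (Nat.le_add_left e e)).ne' e.factorial_ne_zero]
    rfl
  rw [Fin.sum_univ_two]
  have := hle 0
  have := hle 1
  omega

/-- Small weight at the prime two. -/
theorem sum_factorization_weight_two {K : ℕ} (hN : n ≤ N) (hL : N + N = 2 * K)
    {S : ↥(wSets N n)} (hc : runLen (p := 2) (flipSet (N + N) (S : Finset ℕ)) =
      runLen (p := 2) (S : Finset ℕ))
    (hcw : ∀ r, 2 ≤ runLen (p := 2) (S : Finset ℕ) r)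
    (hw : base N + n = coreBase 2 (runLen (p := 2) (S : Finset ℕ)) + 2 * 2) :
    (if flipW hN S = S then 1 else 0) +
      ∑ r, (gapProd (runner 2 (S : Finset ℕ) r)).factorization 2 = 1 := by
  haveI : Fact (Nat.Prime 2) := ⟨Nat.prime_two⟩
  have hsub : (S : Finset ℕ) ⊆ range (2 * K) := hL ▸ subset_range_two hN S
  by_cases hfix : flipW hN S = S
  · have h := sum_factorization_fixed_lt S.2 hsub (hL ▸ congrArg Subtype.val hfix) two_ne_zero hw
    rw [Nat.factorial_two, Nat.Prime.factorization_self Nat.prime_two] at h
    rw [if_pos hfix]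
    omega
  · rw [if_neg hfix, zero_add]
    have hs := sum_excess S.2 hw
    rw [Fin.sum_univ_two] at hs
    by_cases h11 : excess 2 (S : Finset ℕ) 0 = 1
    · exfalso
      refine hfix (Subtype.ext ?_)
      show flipSet (N + N) (S : Finset ℕ) = S
      rw [← joinRunners_runner (p := 2) (flipSet (N + N) (S : Finset ℕ))]
      conv_rhs => rw [← joinRunners_runner (p := 2) (S : Finset ℕ)]
      congr 1
      funext r
      have hex : ∀ r', excess 2 (S : Finset ℕ) r' = 1 := by
        intro r'; fin_cases r'
        · exact h11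
        · show excess 2 (S : Finset ℕ) 1 = 1; omega
      have h1 : runner 2 (flipSet (N + N) (S : Finset ℕ)) r ∈
          wSets (runLen (p := 2) (S : Finset ℕ) r) 1 := by
        have h := runner_mem_wSets (S := flipSet (N + N) (S : Finset ℕ)) hc r
        rwa [hL, excess_flipSet hsub, hex, ← hL] at h
      have h2 : runner 2 (S : Finset ℕ) r ∈ wSets (runLen (p := 2) (S : Finset ℕ) r) 1 := by
        have h := runner_mem_wSets (S := (S : Finset ℕ)) (c := runLen (p := 2) (S : Finset ℕ)) rfl r
        rwa [hex] at h
      refine card_le_one.1 ?_ _ h1 _ h2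
      rw [card_wSets (le_trans one_le_two (hcw r))]
      exact numPartitions_one.le
    · have htwo : ∀ r, excess 2 (S : Finset ℕ) r = 2 →
          (gapProd (runner 2 (S : Finset ℕ) r)).factorization 2 = 1 := by
        intro r hr
        have hR := runner_mem_wSets (S := (S : Finset ℕ)) (c := runLen (p := 2) (S : Finset ℕ)) rfl r
        rw [hr] at hR
        set V : ↥(wSets (runLen (p := 2) (S : Finset ℕ) r) 2) := ⟨_, hR⟩
        obtain ⟨d, hd, hdg⟩ := degree_formula V
        have hd2 : d * d ≤ 2 := by
          have h2 : ∑ g : Perm (Fin 2), F (parts g) (tup V) * F (parts g) (tup V) = (2 : ℤ) := by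
            have h := sum_theta_sq V
            simp only [theta] at h
            exact_mod_cast h
          have h3 := single_le_sum (f := fun g : Perm (Fin 2) => F (parts g) (tup V) * F (parts g) (tup V))
            (fun g _ => mul_self_nonneg _) (mem_univ (1 : Perm (Fin 2)))
          rw [h2] at h3
          simp only [parts_one, hd] at h3
          exact_mod_cast h3
        have hd1 : d = 1 := by
          rcases Nat.eq_zero_or_pos d with h | h
          · rw [h, zero_mul] at hdg; exact absurd hdg.symm (Nat.factorial_ne_zero 2)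
          · by_contra hne
            have := Nat.mul_le_mul (show 2 ≤ d by omega) (show 2 ≤ d by omega)
            omega
        rw [hd1, one_mul, Nat.factorial_two] at hdg
        rw [show runner 2 (S : Finset ℕ) r = (V : Finset ℕ) from rfl, hdg,
          Nat.Prime.factorization_self Nat.prime_two]
      have hzero : ∀ r, excess 2 (S : Finset ℕ) r = 0 →
          (gapProd (runner 2 (S : Finset ℕ) r)).factorization 2 = 0 := by
        intro r hr
        have hR := runner_mem_wSets (S := (S : Finset ℕ)) (c := runLen (p := 2) (S : Finset ℕ)) rfl r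
        rw [hr] at hR
        rw [Nat.eq_one_of_dvd_one (show gapProd (runner 2 (S : Finset ℕ) r) ∣ 1 by
          simpa using gapProd_dvd hR)]
        simp
      rw [Fin.sum_univ_two]
      rcases (show excess 2 (S : Finset ℕ) 0 = 0 ∨ excess 2 (S : Finset ℕ) 0 = 2 by omega) with
        h0 | h0
      · rw [hzero 0 h0, htwo 1 (by omega)]
      · rw [htwo 0 h0, hzero 1 (by omega)]

variable {M : Ideal AlgInt} {B : Set (IrrCharacter ↥(alternatingGroup (Fin n)))}
  {D : Subgroup ↥(alternatingGroup (Fin n))}

theorem isMulCommutative_of_injective {P Q : Type*} [Group P] [Group Q] (f : P →* Q)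
    (hf : Function.Bijective f) (h : ∀ a b : P, a * b = b * a) : IsMulCommutative Q := by
  refine ⟨⟨fun a b => ?_⟩⟩
  obtain ⟨a, rfl⟩ := hf.2 a
  obtain ⟨b, rfl⟩ := hf.2 b
  rw [← map_mul, ← map_mul, h]

/-- Either a character of height one and a defect group with a character of degree `p`, or all
heights zero and an abelian defect group. -/
theorem height_one_or_abelian (hM : IsPModular p M) (hB : IsPBlock M B)
    (hD : IsDefectGroup p M B D) :
    ((∃ χ : IrrCharacter ↥(alternatingGroup (Fin n)), χ ∈ B ∧
        blockHeight p B (χ : ↥(alternatingGroup (Fin n)) → ℂ) = 1) ∧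
      (∃ ψ : IrrCharacter ↥D, charDegree (ψ : ↥D → ℂ) = p)) ∨
    ((∀ χ : IrrCharacter ↥(alternatingGroup (Fin n)), χ ∈ B →
        blockHeight p B (χ : ↥(alternatingGroup (Fin n)) → ℂ) = 0) ∧ IsMulCommutative D) := by
  classical
  haveI : M.IsMaximal := hM.2.1
  haveI : M.IsPrime := Ideal.IsMaximal.isPrime inferInstance
  haveI : NeZero p := ⟨hp.out.ne_zero⟩
  set vA := (Nat.card (alternatingGroup (Fin n))).factorization p with hvA
  set mn := sInf ((fun χ : IrrCharacter ↥(alternatingGroup (Fin n)) =>
    (charDegree (χ : ↥(alternatingGroup (Fin n)) → ℂ)).factorization p) '' B) with hmn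
  have hheight : ∀ χ : IrrCharacter ↥(alternatingGroup (Fin n)),
      blockHeight p B (χ : ↥(alternatingGroup (Fin n)) → ℂ) =
        (charDegree (χ : ↥(alternatingGroup (Fin n)) → ℂ)).factorization p - mn := fun χ => rfl
  have hcardD : Nat.card D = p ^ (vA - mn) := card_isDefectGroup hM hB hD
  have hmin : ∀ χ ∈ B, mn ≤ (charDegree (χ : ↥(alternatingGroup (Fin n)) → ℂ)).factorization p :=
    fun χ hχ => Nat.sInf_le ⟨χ, hχ, rfl⟩
  have hmax : ∀ χ : IrrCharacter ↥(alternatingGroup (Fin n)),
      (charDegree (χ : ↥(alternatingGroup (Fin n)) → ℂ)).factorization p ≤ vA := fun χ =>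
    (Nat.factorization_le_iff_dvd (charDegree_ne_zero' χ) Nat.card_pos.ne').2
      (Blocks.charDegree_dvd_card χ) p
  by_cases hD1 : D = ⊥
  · right
    refine ⟨fun χ hχ => ?_, ?_⟩
    · have h0 := (blockDefect_eq_zero_iff hM hB hD).2 hD1
      have : vA - mn = 0 := h0
      have := hmax χ
      rw [hheight]
      omega
    · subst hD1
      exact ⟨⟨fun a b => Subsingleton.elim _ _⟩⟩
  have hn := two_le_of_ne_bot hD1
  set N := p * (n + n) with hNdef
  have hN : n ≤ N := le_trans (Nat.le_add_left n n) (Nat.le_mul_of_pos_left _ hp.out.pos)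
  have hN' : p * n + n ≤ N := by
    rw [hNdef, Nat.mul_add]; exact Nat.add_le_add_left (Nat.le_mul_of_pos_left _ hp.out.pos) _
  obtain ⟨χ₀, hχ₀⟩ := isPBlock_nonempty hB
  obtain ⟨U, hU⟩ := exists_over_set (N := N) hN χ₀
  set c := runLen (p := p) (U : Finset ℕ) with hcdef
  obtain ⟨w, hw⟩ := exists_weight (p := p) U.2
  have hc : ∑ r, c r = N := (card_eq_sum_runner (p := p) (U : Finset ℕ)).symm.trans
    (mem_wSets.1 U.2).1
  have hpw : p * w ≤ n := by
    have : base N + n = coreBase p c + p * w := hw
    have := base_le_coreBase _ hc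
    omega
  have hcn : ∀ r, n ≤ c r := fun r => runLen_ge hN' U.2 r
  have hwn : w ≤ n := le_trans (Nat.le_mul_of_pos_left w hp.out.pos) hpw
  have hcore := exists_core_alt hM hB hN hχ₀ hU
  have hfixsub : ∀ {K : ℕ}, N + N = p * K → ∀ S : ↥(wSets N n), flipW hN S = S →
      flipSet (p * K) (S : Finset ℕ) = S := fun h S e => h ▸ congrArg Subtype.val e
  have hNN : N + N = p * (n + n + (n + n)) := by rw [hNdef]; ring
  -- the lower bound for the degrees
  have hlow : ∀ χ ∈ B, vA ≤ (charDegree (χ : ↥(alternatingGroup (Fin n)) → ℂ)).factorization p +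
      Wreath.altExp p w := by
    intro χ hχ
    obtain ⟨S, hS, hover⟩ := hcore χ hχ
    have hS' := mem_coreSets.1 hS
    have h := factorization_charDegree_over hN hn hover (hS' ▸ hw)
    have hle := sum_factorization_runner_le (p := p) S.2 (hS' ▸ hw)
    have hA := factorization_card_alt (p := p) hn
    rw [Wreath.altExp, factorization_factorial_mul_prime]
    by_cases h2 : p = 2
    · subst h2
      by_cases hf : flipW hN S = S
      · rw [if_pos ⟨rfl, hf⟩] at h
        rw [if_pos rfl] at hA ⊢
        rcases Nat.eq_zero_or_pos w with rfl | hw0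
        · have h00 : (0 !).factorization 2 = 0 := by simp
          omega
        · have := sum_factorization_fixed_lt S.2 (hNN ▸ subset_range_two hN S)
            (hfixsub hNN S hf) hw0.ne' (hS' ▸ hw)
          omega
      · rw [if_neg fun h => hf h.2] at h
        rw [if_pos rfl] at hA ⊢
        omega
    · rw [if_neg fun h => h2 h.1] at h
      rw [if_neg h2] at hA ⊢
      omega
  obtain ⟨P, hPp, hPs, hPcard, hPchar⟩ := Wreath.exists_sylow_alt (p := p) w
  obtain ⟨κ, hκ⟩ := exists_hom_defect hM hB hD hD1 hχ₀ hU hw hpw hPp hPs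
  have hdle : Wreath.altExp p w ≤ vA - mn := by
    have h := Nat.card_le_card_of_injective κ hκ
    rw [hPcard, hcardD] at h
    exact (Nat.pow_le_pow_iff_right hp.out.one_lt).1 h
  obtain ⟨χ₁, hχ₁, hχ₁'⟩ := Nat.sInf_mem (s := (fun χ : IrrCharacter ↥(alternatingGroup (Fin n)) =>
    (charDegree (χ : ↥(alternatingGroup (Fin n)) → ℂ)).factorization p) '' B)
    ⟨_, χ₀, hχ₀, rfl⟩
  have hmeq : vA - mn = Wreath.altExp p w := by
    have h1 := hlow χ₁ hχ₁
    have h2 : (charDegree (χ₁ : ↥(alternatingGroup (Fin n)) → ℂ)).factorization p = mn := hχ₁'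
    omega
  have hκb : Function.Bijective κ := by
    rw [Nat.bijective_iff_injective_and_card]
    exact ⟨hκ, by rw [hPcard, hcardD, hmeq]⟩
  have hexp0 : Wreath.altExp p w ≠ 0 := fun h0 => by
    refine hD1 (Subgroup.card_eq_one.1 ?_)
    rw [hcardD, hmeq, h0, pow_zero]
  have hvA := factorization_card_alt (p := p) hn
  by_cases hbig : (p ≠ 2 ∧ p ≤ w) ∨ (p = 2 ∧ 3 ≤ w)
  · left
    refine ⟨?_, ?_⟩
    · obtain ⟨S, hS, hnf, hsum⟩ : ∃ S : ↥(wSets N n), runLen (p := p) (S : Finset ℕ) = c ∧
          (p = 2 → flipW hN S ≠ S) ∧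
          ∑ r, (gapProd (runner p (S : Finset ℕ) r)).factorization p + 1 =
            (w !).factorization p := by
        rcases hbig with ⟨h2, hpw'⟩ | ⟨h2, hw3⟩
        · obtain ⟨S, hS, hsum⟩ := exists_height_one_odd h2 hc hw
            (fun r => le_trans (by omega) (hcn r)) hpw'
          exact ⟨S, hS, fun h => absurd h h2, hsum⟩
        · subst h2
          obtain ⟨S, hS, hne, hsum⟩ := exists_height_one_two (K := n + n + (n + n)) hc hw
            (fun r => hwn.trans (hcn r)) hw3 (fun S => hNN ▸ subset_range_two hN S) (by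
              rw [Fin.sum_univ_two] at hc
              omega)
          exact ⟨S, hS, fun _ e => hne (hfixsub hNN S e), hsum⟩
      obtain ⟨χ, hχ, hover⟩ := exists_over_mem hM hB hN hχ₀ hU hw hpw hS
      refine ⟨χ, hχ, ?_⟩
      have h := factorization_charDegree_over hN hn hover (w := w) (p := p) (by rw [hS]; exact hw)
      rw [if_neg fun h => hnf h.1 h.2] at h
      rw [hheight]
      rw [Wreath.altExp, factorization_factorial_mul_prime] at hmeq
      have := hmax χ
      have := hmin χ hχ
      have : 1 ≤ (w !).factorization p := by omega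
      split_ifs at hvA hmeq <;> omega
    · obtain ⟨ψ, hψ⟩ := hPchar hbig
      exact Wreath.exists_degree_comp (MulEquiv.ofBijective κ hκb).symm.toMonoidHom
        (MulEquiv.surjective _) ψ hψ
  · right
    by_cases h2 : p = 2
    · subst h2
      have hw2 : w = 2 := by
        rcases (show w = 0 ∨ w = 1 ∨ w = 2 by
          by_contra h; exact hbig (Or.inr ⟨rfl, by omega⟩)) with rfl | rfl | rfl
        · exfalso; apply hexp0
          simp [Wreath.altExp]
        · exfalso; apply hexp0
          rw [Wreath.altExp, if_pos rfl, Nat.mul_one, Nat.factorial_two,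
            Nat.Prime.factorization_self Nat.prime_two]
        · rfl
      subst hw2
      have hexp : Wreath.altExp 2 2 = 2 := by
        rw [Wreath.altExp, factorization_factorial_mul_prime, if_pos rfl, Nat.factorial_two,
          Nat.Prime.factorization_self Nat.prime_two]
      refine ⟨fun χ hχ => ?_, ?_⟩
      · obtain ⟨S, hS, hover⟩ := hcore χ hχ
        have hS' := mem_coreSets.1 hS
        have h := factorization_charDegree_over hN hn hover (hS' ▸ hw)
        have h1 := sum_factorization_weight_two hN hNN (S := S) (by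
            funext r
            rw [hNN, runLen_flipSet (hNN ▸ subset_range_two hN S), hS']
            rw [Fin.sum_univ_two] at hc
            fin_cases r
            · show n + n + (n + n) - c (Fin.rev 0) = c 0
              rw [show (0 : Fin 2).rev = 1 from rfl]; omega
            · show n + n + (n + n) - c (Fin.rev 1) = c 1
              rw [show (1 : Fin 2).rev = 0 from rfl]; omega)
          (fun r => hS' ▸ hwn.trans (hcn r)) (hS' ▸ hw)
        rw [hheight]
        have := hmax χ
        have := hmin χ hχ
        rw [hexp] at hmeq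
        rw [if_pos rfl] at hvA
        have e : (if 2 = 2 ∧ flipW hN S = S then 1 else 0 : ℕ) =
            (if flipW hN S = S then 1 else 0) := if_congr (and_iff_right rfl) rfl rfl
        rw [e] at h
        omega
      · have hcard : Nat.card D = 2 ^ 2 := by rw [hcardD, hmeq, hexp]
        exact IsPGroup.isMulCommutative_of_card_eq_prime_sq hcard
    · have hwp : w < p := by
        by_contra h
        exact hbig (Or.inl ⟨h2, by omega⟩)
      have hfw : (w !).factorization p = 0 :=
        Nat.factorization_eq_zero_of_not_dvd fun hd => by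
          have := hp.out.dvd_factorial.1 hd; omega
      have hexp : Wreath.altExp p w = w := by
        rw [Wreath.altExp, factorization_factorial_mul_prime, if_neg h2, hfw]; rfl
      refine ⟨fun χ hχ => ?_, ?_⟩
      · obtain ⟨S, hS, hover⟩ := hcore χ hχ
        have hS' := mem_coreSets.1 hS
        have h := factorization_charDegree_over hN hn hover (hS' ▸ hw)
        have hle := sum_factorization_runner_le (p := p) S.2 (hS' ▸ hw)
        rw [if_neg fun h => h2 h.1] at h
        rw [if_neg h2] at hvA
        rw [hexp] at hmeq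
        rw [hheight]
        have := hmax χ
        have := hmin χ hχ
        omega
      · have hQp : IsPGroup p (⊥ : Subgroup (Perm (Fin w))) := IsPGroup.of_bot
        have hP' := Wreath.isPGroup_wreath hQp
        obtain ⟨ρ, hρ⟩ := exists_hom_defect hM hB hD hD1 hχ₀ hU hw hpw hP'
          (fun π hπ => Wreath.sign_eq_one_of_odd h2 hP' hπ)
        refine isMulCommutative_of_injective ρ ?_ fun a b => ?_
        · rw [Nat.bijective_iff_injective_and_card]
          exact ⟨hρ, by rw [Wreath.card_wreath, Subgroup.card_bot, one_mul, hcardD, hmeq, hexp]⟩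
        · obtain ⟨σ, hσ, f, ha⟩ := a.2
          obtain ⟨τ, hτ, g, hb⟩ := b.2
          rw [Subgroup.mem_bot] at hσ hτ
          refine Subtype.ext ?_
          rw [Subgroup.coe_mul, Subgroup.coe_mul, ha, hb, hσ, hτ]
          refine Equiv.ext fun z => ?_
          obtain ⟨i, x⟩ := z
          simp only [Perm.mul_apply]
          simp [Wreath.shift, Wreath.onTop, add_assoc, add_comm (g i)]

end CfsgLib.SymChar
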