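import Cfsg.Agent.Lib.SymChar.OneBlock
import Cfsg.Agent.Lib.SymChar.AltDefect
import Cfsg.Agent.Lib.Clifford.Basic

/-!
# Defect groups contain Sylow subgroups on the moved points

A defect class over a core of weight `w` fixes `p w` points, so that its centralizer contains
their symmetric group. Hence the characters over a core form one block.
-/

set_option autoImplicit false
set_option linter.unusedSectionVars false
set_option linter.style.haveILetI false

namespace CfsgLib.SymChar

open Equiv Finset Cfsg CfsgLib.CharTheory CfsgLib.Blocks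
open scoped Nat

variable {p N n : ℕ} [hp : Fact p.Prime]

/-- Degrees of the symmetric group. -/
theorem charDegree_chi_mul (S : ↥(wSets N n)) :
    charDegree (chi S : Perm (Fin n) → ℂ) * gapProd (S : Finset ℕ) = n ! := by
  obtain ⟨d, hd, hdg⟩ := degree_formula S
  have h1 : ((charDegree (chi S : Perm (Fin n) → ℂ) : ℤ) : ℂ) = sgn S * (d : ℂ) := by
    rw [Int.cast_natCast, charDegree_cast, chi_apply, theta, parts_one, hd, Int.cast_natCast]
  have h2 : ((charDegree (chi S : Perm (Fin n) → ℂ) * charDegree (chi S : Perm (Fin n) → ℂ) : ℕ) : ℂ) =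
      ((d * d : ℕ) : ℂ) := by
    push_cast
    rw [Int.cast_natCast] at h1
    rw [h1, mul_mul_mul_comm, sgn_mul_self, one_mul]
  rw [Nat.mul_self_inj.1 (Nat.cast_injective h2), hdg]

theorem factorization_charDegree_chi (S : ↥(wSets N n)) :
    (charDegree (chi S : Perm (Fin n) → ℂ)).factorization p +
      (gapProd (S : Finset ℕ)).factorization p = (n !).factorization p := by
  have h := charDegree_chi_mul S
  have hd : charDegree (chi S : Perm (Fin n) → ℂ) ≠ 0 := fun h0 => by
    rw [h0, zero_mul] at h; exact n.factorial_ne_zero h.symm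
  rw [← h, Nat.factorization_mul hd (gapProd_ne_zero _), Finsupp.add_apply]

theorem factorization_quotGap (S : Finset ℕ) :
    (quotGap p S).factorization p = ∑ r : Fin p, (gapProd (runner p S r)).factorization p := by
  rw [quotGap, Nat.factorization_prod fun r _ => gapProd_ne_zero _, Finsupp.finsetSum_apply]

/-- The moved points of the cycles, moved to the fixed points of a class. -/
theorem exists_embedding {x g : Perm (Fin n)} {w : ℕ} (hct : x.cycleType = Multiset.replicate w p)
    (hg : ¬ p ∣ orderOf g) {c : Perm (Fin n)}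
    (hc : (cycleGroup x).map (MulAut.conj c).toMonoidHom ≤
      Subgroup.centralizer ({g} : Set (Perm (Fin n)))) :
    ∃ ι : Perm (Fin w × ZMod p) →* Perm (Fin n), Function.Injective ι ∧
      (∀ π, ι π * g = g * ι π) ∧ ∀ π, Perm.sign (ι π) = Perm.sign π := by
  classical
  haveI : NeZero p := ⟨hp.out.ne_zero⟩
  have hfix : ∀ a ∈ x.support, (c⁻¹ * g * c) a = a := by
    refine fix_support_of_commute hct ?_ fun e he => ?_
    · rwa [show c⁻¹ * g * c = MulAut.conj c⁻¹ g by simp, MulEquiv.orderOf_eq]
    · have h := Subgroup.mem_centralizer_singleton_iff.1 (hc ⟨e, he, rfl⟩)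
      simp only [MulEquiv.coe_toMonoidHom, MulAut.conj_apply] at h
      calc c⁻¹ * g * c * e = c⁻¹ * (g * (c * e * c⁻¹)) * c := by group
        _ = c⁻¹ * (c * e * c⁻¹ * g) * c := by rw [h]
        _ = e * (c⁻¹ * g * c) := by group
  set X := x.support.map c.toEmbedding with hX
  have hgX : ∀ a ∈ X, g a = a := by
    intro a ha
    obtain ⟨b, hb, rfl⟩ := mem_map.1 ha
    have h := hfix b hb
    simp only [Perm.mul_apply] at h
    exact (Equiv.symm_apply_eq c).1 h
  have hcard : Fintype.card (Fin w × ZMod p) = Fintype.card {a : Fin n // a ∈ X} := by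
    rw [Fintype.card_prod, Fintype.card_fin, ZMod.card, Fintype.card_coe, hX, card_map,
      card_support_of_cycleType hct, mul_comm]
  refine ⟨Perm.extendDomainHom (Fintype.equivOfCardEq hcard), Perm.extendDomainHom_injective _,
    fun π => ?_, fun π => Perm.sign_extendDomain π _⟩
  refine (Perm.Disjoint.commute fun a => ?_).eq
  by_cases ha : a ∈ X
  · exact Or.inr (hgX a ha)
  · exact Or.inl (Perm.extendDomain_apply_not_subtype _ _ ha)

variable {M : Ideal AlgInt} [M.IsPrime]

/-- A block contains a character whose quotient has degree prime to `p`. -/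
theorem exists_unit_quot (hM : IsPModular p M) (hN : n ≤ N) {U S : ↥(wSets N n)} {w : ℕ}
    (hw : base N + n = coreBase p (runLen (p := p) (U : Finset ℕ)) + p * w) (hpw : p * w ≤ n)
    (hS : runLen (p := p) (S : Finset ℕ) = runLen (p := p) (U : Finset ℕ)) :
    ∃ T : ↥(wSets N n), SameBlock M (chi S : Perm (Fin n) → ℂ) (chi T : Perm (Fin n) → ℂ) ∧
      runLen (p := p) (T : Finset ℕ) = runLen (p := p) (U : Finset ℕ) ∧
      (quotGap p (T : Finset ℕ)).factorization p = (w !).factorization p := by
  classical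
  haveI : NeZero p := ⟨hp.out.ne_zero⟩
  have hB := isPBlock_blockOf (M := M) (chi S)
  have hχ := mem_blockOf_self (M := M) (chi S)
  obtain ⟨D, hD⟩ := exists_isDefectGroup hM hB
  obtain ⟨g, hg, P, hP⟩ := id hD
  obtain ⟨x, hct, hk, hne⟩ := exists_cycles_apply_ne_zero S (hS ▸ hw) hpw
  obtain ⟨hcard, -, -⟩ := cycleGroup_spec hct
  obtain ⟨c, hc⟩ := exists_conj_le_centralizer hM hk hne (IsPGroup.of_card hcard)
    (cycleGroup_le_centralizer x) (fun h hh e he => conj_mem_cycleGroup x hh he) (hg.2.2 _ hχ)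
  obtain ⟨ι, hι, hιg, -⟩ := exists_embedding hct (not_dvd_orderOf_of_isDefectClass hM hB hg) hc
  have hdvd : (p * w)! ∣ Nat.card (Subgroup.centralizer ({g} : Set (Perm (Fin n)))) := by
    have h1 : Nat.card ι.range = (p * w)! := by
      rw [Nat.card_congr (MonoidHom.ofInjective hι).symm.toEquiv, Nat.card_perm, Nat.card_prod,
        Nat.card_fin, Nat.card_zmod, mul_comm]
    rw [← h1]
    refine Subgroup.card_dvd_of_le ?_
    rintro _ ⟨π, rfl⟩
    exact Subgroup.mem_centralizer_singleton_iff.2 (hιg π)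
  have hle := (Nat.factorization_le_iff_dvd (p * w).factorial_ne_zero Nat.card_pos.ne').2 hdvd p
  rw [factorization_factorial_mul_prime] at hle
  have hinf := sInf_factorization_eq hM hB hg
  have hG := factorization_card_eq (p := p) g
  rw [Nat.card_eq_fintype_card (α := Perm (Fin n)), Fintype.card_perm, Fintype.card_fin] at hG
  obtain ⟨ψ, hψ, hψ'⟩ := Nat.sInf_mem (s := (fun χ : IrrCharacter (Perm (Fin n)) =>
    (charDegree (χ : Perm (Fin n) → ℂ)).factorization p) '' blockOf M (chi S : Perm (Fin n) → ℂ))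
    ⟨_, _, hχ, rfl⟩
  obtain ⟨T, rfl⟩ := (chiEquiv hN).surjective ψ
  obtain ⟨S₀, -, hcore⟩ := exists_core hM hB hN
  have e1 := mem_coreSets.1 (hcore _ hψ)
  have e2 := mem_coreSets.1 (hcore _ hχ)
  rw [Equiv.symm_apply_apply] at e1
  rw [show (chiEquiv hN).symm (chi S) = S from (chiEquiv hN).symm_apply_apply S] at e2
  have hT : runLen (p := p) (T : Finset ℕ) = runLen (p := p) (U : Finset ℕ) := by
    rw [e1, ← e2, hS]
  refine ⟨T, hψ, hT, ?_⟩
  have hdeg := factorization_charDegree_chi (p := p) T
  have hgap := factorization_gapProd_core (p := p) T.2 (hT ▸ hw)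
  have hle' := sum_factorization_runner_le (p := p) T.2 (hT ▸ hw)
  have hψ'' : (charDegree (chi T : Perm (Fin n) → ℂ)).factorization p =
      (Subgroup.centralizer ({g} : Set (Perm (Fin n)))).index.factorization p :=
    hψ'.trans hinf
  rw [factorization_quotGap]
  omega

/-- The characters over a core form one block. -/
theorem sameBlock_of_core (hM : IsPModular p M) (hN : n ≤ N) {U S T : ↥(wSets N n)} {w : ℕ}
    (hw : base N + n = coreBase p (runLen (p := p) (U : Finset ℕ)) + p * w) (hpw : p * w ≤ n)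
    (hS : runLen (p := p) (S : Finset ℕ) = runLen (p := p) (U : Finset ℕ))
    (hT : runLen (p := p) (T : Finset ℕ) = runLen (p := p) (U : Finset ℕ)) :
    SameBlock M (chi S : Perm (Fin n) → ℂ) (chi T : Perm (Fin n) → ℂ) := by
  obtain ⟨S', hSS', hS', hS0⟩ := exists_unit_quot hM hN hw hpw hS
  obtain ⟨T', hTT', hT', hT0⟩ := exists_unit_quot hM hN hw hpw hT
  exact sameBlock_trans (sameBlock_trans hSS' (sameBlock_of_unit_mult hM hw hpw hS' hS0 hT' hT0))
    (sameBlock_symm hTT')

/-! ### The alternating group -/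

variable {B : Set (IrrCharacter ↥(alternatingGroup (Fin n)))}
  {D : Subgroup ↥(alternatingGroup (Fin n))}

/-- Degrees below a weight set: halved exactly for the self-conjugate ones. -/
theorem charDegree_over (hN : n ≤ N) (hn : 2 ≤ n) {S : ↥(wSets N n)}
    {χ : IrrCharacter ↥(alternatingGroup (Fin n))} (h : Over S χ) :
    (if flipW hN S = S then 2 else 1) * charDegree (χ : alternatingGroup (Fin n) → ℂ) =
      charDegree (chi S : Perm (Fin n) → ℂ) := by
  classical
  refine Nat.cast_injective (R := ℂ) ?_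
  rw [Nat.cast_mul, charDegree_cast, charDegree_cast]
  by_cases hfix : flipW hN S = S
  · obtain ⟨χ₁, χ₂, -, hover, hval⟩ := (res_cases hN hn S).2 hfix
    obtain ⟨t, ht⟩ := Clifford.exists_conj_of_constituents (N := alternatingGroup (Fin n))
      (chi S).2 χ₁.2 χ₂.2 ((hover χ₁).2 (Or.inl rfl)) ((hover χ₂).2 (Or.inr rfl))
    have e12 : (χ₂ : alternatingGroup (Fin n) → ℂ) 1 = (χ₁ : alternatingGroup (Fin n) → ℂ) 1 := by
      rw [ht, Clifford.conjChar_apply_one]
    have h1 := hval 1
    rw [e12, OneMemClass.coe_one] at h1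
    rw [if_pos hfix, ← h1]
    rcases (hover χ).1 h with rfl | rfl
    · push_cast; ring
    · rw [e12]; push_cast; ring
  · obtain ⟨χ₁, hover, hval⟩ := (res_cases hN hn S).1 hfix
    obtain rfl := (hover χ).1 h
    rw [if_neg hfix, Nat.cast_one, one_mul, hval 1, OneMemClass.coe_one]

/-- Each weight set has a character below it. -/
theorem exists_below (hN : n ≤ N) (S : ↥(wSets N n)) :
    ∃ ψ : IrrCharacter ↥(alternatingGroup (Fin n)), Over S ψ := by
  by_cases hn : 2 ≤ n
  · by_cases hfix : flipW hN S = S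
    · obtain ⟨χ₁, χ₂, -, hover, -⟩ := (res_cases hN hn S).2 hfix
      exact ⟨χ₁, (hover χ₁).2 (Or.inl rfl)⟩
    · obtain ⟨χ₁, hover, -⟩ := (res_cases hN hn S).1 hfix
      exact ⟨χ₁, (hover χ₁).2 rfl⟩
  · haveI : Subsingleton (Fin n) := Fin.subsingleton_iff_le_one.2 (by omega)
    haveI := Fintype.ofFinite (IrrCharacter ↥(alternatingGroup (Fin n)))
    by_contra hall
    push Not at hall
    have h := eq_sum_classInner (f := fun a : alternatingGroup (Fin n) =>
      (chi S : Perm (Fin n) → ℂ) a)
      (fun g h => IsIrrCharacter.isClassFunction (chi S).2 (g : Perm (Fin n)) (h : Perm (Fin n)))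
    simp only [Over, ne_eq, not_not] at hall
    simp only [hall, zero_smul, sum_const_zero] at h
    exact apply_one_ne_zero_of_isIrr (chi S).2 (congrFun h 1)

/-- A block of the alternating group meets the constituents of each member of the core. -/
theorem exists_over_mem (hM : IsPModular p M) (hB : IsPBlock M B) (hN : n ≤ N)
    {χ₀ : IrrCharacter ↥(alternatingGroup (Fin n))} (hχ₀ : χ₀ ∈ B) {U : ↥(wSets N n)}
    (hU : Over U χ₀) {w : ℕ}
    (hw : base N + n = coreBase p (runLen (p := p) (U : Finset ℕ)) + p * w) (hpw : p * w ≤ n)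
    {S : ↥(wSets N n)} (hS : runLen (p := p) (S : Finset ℕ) = runLen (p := p) (U : Finset ℕ)) :
    ∃ χ ∈ B, Over S χ := by
  classical
  haveI := Fintype.ofFinite (IrrCharacter ↥(alternatingGroup (Fin n)))
  obtain ⟨ψ, hψ⟩ := exists_below hN S
  have hmem := BlockLocal.mem_orbitSet_of_constituent (alternatingGroup (Fin n)) hB
    (sameBlock_of_core hM hN hw hpw rfl hS) hχ₀ hU hψ
  obtain ⟨t, θ, hθ, rfl⟩ := (BlockLocal.mem_orbitSet _).1 hmem
  exact ⟨θ, hθ, by rwa [Over, BlockLocal.classInner_res_conjIrr] at hψ⟩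

/-- A `p`-subgroup on the moved points lands in the defect group. -/
theorem exists_hom_defect (hM : IsPModular p M) (hB : IsPBlock M B)
    (hD : IsDefectGroup p M B D) (hD1 : D ≠ ⊥)
    {χ₀ : IrrCharacter ↥(alternatingGroup (Fin n))} (hχ₀ : χ₀ ∈ B) {U : ↥(wSets N n)}
    (hU : Over U χ₀) {w : ℕ}
    (hw : base N + n = coreBase p (runLen (p := p) (U : Finset ℕ)) + p * w) (hpw : p * w ≤ n)
    {Q : Subgroup (Perm (Fin w × ZMod p))} (hQ : IsPGroup p Q)
    (heven : ∀ π ∈ Q, Perm.sign π = 1) :
    ∃ f : Q →* D, Function.Injective f := by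
  classical
  obtain ⟨g, hg, P, rfl⟩ := id hD
  obtain ⟨x, hct, hk, hne⟩ := exists_cycles_apply_ne_zero U hw hpw
  obtain ⟨hcard, -, -⟩ := cycleGroup_spec hct
  have hω : ¬ MemLocalIdeal M (centralChar (chi U : Perm (Fin n) → ℂ) (g : Perm (Fin n))) := by
    rw [centralChar_over_eq (not_centralizer_le_alt hM hB hg P hD1) hU]
    exact hg.2.2 χ₀ hχ₀
  obtain ⟨c, hc⟩ := exists_conj_le_centralizer hM hk hne (IsPGroup.of_card hcard)
    (cycleGroup_le_centralizer x) (fun h hh e he => conj_mem_cycleGroup x hh he) hω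
  obtain ⟨ι, hι, hιg, hsign⟩ := exists_embedding hct
    (by rw [Subgroup.orderOf_coe]; exact not_dvd_orderOf_of_isDefectClass hM hB hg) hc
  have hA : ∀ q : Q, ι (q : Perm (Fin w × ZMod p)) ∈ alternatingGroup (Fin n) := fun q => by
    rw [Perm.mem_alternatingGroup, hsign]
    convert heven q q.2
  set κ : Q →* alternatingGroup (Fin n) := (ι.comp Q.subtype).codRestrict _ hA with hκ
  have hκinj : Function.Injective κ := fun a b e =>
    Subtype.ext (hι (congrArg Subtype.val e))
  have hle : κ.range ≤ Subgroup.centralizer ({g} : Set (alternatingGroup (Fin n))) := by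
    rintro _ ⟨q, rfl⟩
    exact Subgroup.mem_centralizer_singleton_iff.2 (Subtype.ext (hιg _))
  obtain ⟨d, hd⟩ := exists_conj_le_sylow_map P
    (hQ.of_equiv (MonoidHom.ofInjective hκinj)) hle
  exact ⟨((MulAut.conj d).toMonoidHom.comp κ).codRestrict _ fun q => hd ⟨κ q, ⟨q, rfl⟩, rfl⟩,
    fun a b e => hκinj ((MulAut.conj d).injective (congrArg Subtype.val e))⟩

end CfsgLib.SymChar
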