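import Cfsg.Agent.Lib.SymChar.QuotientDeg
import Cfsg.Agent.Lib.SymChar.AltBlocks
import Cfsg.Agent.Lib.BrauerCharacters.ClassMul
import Cfsg.Agent.Lib.Blocks.Knorr

/-!
# The characters of one core form one block

Central characters of characters with a quotient of `p'`-degree are congruent, and every block
contains one of these.
-/

set_option autoImplicit false
set_option linter.unusedSectionVars false
set_option linter.style.haveILetI false

namespace CfsgLib.SymChar

open Equiv Finset Cfsg CfsgLib.CharTheory CfsgLib.Blocks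
open scoped Nat

variable {p N n : ℕ}

/-- Parts on the points outside the `w` cycles. -/
def restParts (p w : ℕ) (v : Perm (Fin n)) : Multiset ℕ :=
  v.cycleType + Multiset.replicate (n - p * w - v.support.card) 1

theorem card_support_of_cycleType {x : Perm (Fin n)} {w : ℕ}
    (hct : x.cycleType = Multiset.replicate w p) : x.support.card = p * w := by
  rw [← Perm.sum_cycleType, hct, Multiset.sum_replicate, smul_eq_mul, mul_comm]

theorem mul_le_of_cycleType {x : Perm (Fin n)} {w : ℕ}
    (hct : x.cycleType = Multiset.replicate w p) : p * w ≤ n := by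
  rw [← card_support_of_cycleType hct]
  simpa using card_le_univ x.support

theorem parts_mul_of_disjoint {x v : Perm (Fin n)} {w : ℕ}
    (hct : x.cycleType = Multiset.replicate w p) (hv : ∀ a ∈ x.support, v a = a) :
    parts (x * v) = Multiset.replicate w p + restParts p w v := by
  classical
  have hd : x.Disjoint v := fun a => by
    by_cases ha : a ∈ x.support
    · exact Or.inr (hv a ha)
    · exact Or.inl (Perm.notMem_support.1 ha)
  rw [parts, Perm.parts_partition, hd.cycleType_mul, hd.card_support_mul, hct,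
    card_support_of_cycleType hct, Fintype.card_fin, add_assoc, restParts, Nat.sub_sub]

theorem parts_of_fix {x v : Perm (Fin n)} {w : ℕ} (hct : x.cycleType = Multiset.replicate w p)
    (hv : ∀ a ∈ x.support, v a = a) :
    parts v = restParts p w v + Multiset.replicate (p * w) 1 := by
  classical
  have hsub : v.support ⊆ univ \ x.support := fun a ha =>
    mem_sdiff.2 ⟨mem_univ a, fun h => Perm.mem_support.1 ha (hv a h)⟩
  have hle := card_le_card hsub
  rw [card_sdiff_of_subset (subset_univ _), card_univ, Fintype.card_fin,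
    card_support_of_cycleType hct] at hle
  have hpw := mul_le_of_cycleType hct
  rw [parts, Perm.parts_partition, Fintype.card_fin, restParts, add_assoc, ← Multiset.replicate_add,
    show n - p * w - v.support.card + p * w = n - v.support.card by omega]

/-- A `p`-regular element commuting with the cycles fixes their points. -/
theorem fix_support_of_commute [hp : Fact p.Prime] {x g : Perm (Fin n)} {w : ℕ}
    (hct : x.cycleType = Multiset.replicate w p) (hg : ¬ p ∣ orderOf g)
    (hcomm : ∀ e ∈ cycleGroup x, g * e = e * g) : ∀ a ∈ x.support, g a = a := by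
  classical
  intro a ha
  set c := x.cycleOf a with hc
  have hcf : c ∈ x.cycleFactorsFinset := Perm.cycleOf_mem_cycleFactorsFinset_iff.2 ha
  have hce : c ∈ cycleGroup x := by
    rw [cycleGroup_eq_iSup]
    exact Subgroup.mem_iSup_of_mem (⟨c, hcf⟩ : x.cycleFactorsFinset) (Subgroup.mem_zpowers c)
  have hcyc := (Perm.mem_cycleFactorsFinset_iff.1 hcf).1
  have hord : orderOf c = p := by
    rw [hcyc.orderOf]
    refine Multiset.eq_of_mem_replicate (n := w) ?_
    rw [← hct, Perm.cycleType_def]
    exact Multiset.mem_map.2 ⟨c, hcf, rfl⟩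
  have hac : a ∈ c.support := by
    rw [hc, Perm.mem_support_cycleOf_iff]
    exact ⟨Perm.SameCycle.refl _ _, ha⟩
  have hgc : Commute g c := hcomm c hce
  have hga : g a ∈ c.support := by
    rw [Perm.mem_support] at hac ⊢
    intro e
    apply hac
    have h1 : g (c a) = c (g a) := congrArg (fun σ : Perm (Fin n) => σ a) hgc.eq
    rw [e] at h1
    exact g.injective h1
  obtain ⟨k, hk⟩ := hcyc.exists_pow_eq (Perm.mem_support.1 hac) (Perm.mem_support.1 hga)
  have hiter : ∀ m : ℕ, (g ^ m) a = (c ^ (k * m)) a := by
    intro m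
    induction m with
    | zero => simp
    | succ m ih =>
      have h1 : g ((c ^ (k * m)) a) = (c ^ (k * m)) (g a) :=
        congrArg (fun σ : Perm (Fin n) => σ a) (hgc.pow_right (k * m)).eq
      rw [pow_succ', Perm.mul_apply, ih, h1, ← hk, ← Perm.mul_apply, ← pow_add, Nat.mul_succ]
  have h := hiter (orderOf g)
  rw [pow_orderOf_eq_one, Perm.one_apply] at h
  have h1 : c ^ (k * orderOf g) = 1 :=
    hcyc.pow_eq_one_iff.2 ⟨a, Perm.mem_support.1 hac, h.symm⟩
  have h2 := orderOf_dvd_of_pow_eq_one h1
  rw [hord] at h2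
  obtain ⟨t, rfl⟩ := (hp.out.dvd_mul.1 h2).resolve_right hg
  rw [← hk, pow_mul, ← hord, pow_orderOf_eq_one, one_pow, Perm.one_apply]

variable [hp : Fact p.Prime]

/-- The multiplicity relative to one enumeration of a core. -/
theorem exists_signed_mult {U S : ↥(wSets N n)} {w : ℕ}
    (hw : base N + n = coreBase p (runLen (p := p) (U : Finset ℕ)) + p * w)
    (hS : runLen (p := p) (S : Finset ℕ) = runLen (p := p) (U : Finset ℕ)) :
    ∃ a : ℤ, (∀ m, F (Multiset.replicate w p + m) (tup S) = a * F m (pushDown p (tup U))) ∧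
      a.natAbs * quotGap p (S : Finset ℕ) = w ! := by
  classical
  haveI : NeZero p := ⟨hp.out.ne_zero⟩
  have hSi := (strictMono_tup S).injective
  have hUi := (strictMono_tup U).injective
  have hsum : ∀ V : ↥(wSets N n), runLen (p := p) (V : Finset ℕ) =
      runLen (p := p) (U : Finset ℕ) → ∑ i, tup V i = ∑ i, pushDown p (tup V) i + p * w :=
    fun V hV => by rw [sum_tup, sum_pushDown (strictMono_tup V).injective, tupLen_tup, hV, hw]
  obtain ⟨a, ha, haq⟩ := exists_mult (p := p) w (tup S) hSi (hsum S hS)
  rw [image_tup] at haq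
  have hset : univ.image (pushDown p (tup S)) = univ.image (pushDown p (tup U)) := by
    have key : ∀ V : ↥(wSets N n), univ.image (pushDown p (tup V)) =
        joinRunners p fun r => range (runLen (p := p) (V : Finset ℕ) r) := by
      intro V
      have hVi := (strictMono_tup V).injective
      refine eq_of_subset_of_card_le (fun y hy => ?_) ?_
      · obtain ⟨i, -, rfl⟩ := mem_image.1 hy
        rw [mem_joinRunners]
        have hmod : pushDown p (tup V) i % p = tup V i % p := by
          rw [pushDown, Nat.add_mul_mod_self_left, Nat.mod_mod]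
        have hdiv : pushDown p (tup V) i / p = rankOn p (tup V) i := by
          rw [pushDown, Nat.add_mul_div_left _ _ (NeZero.pos p),
            Nat.div_eq_of_lt (Nat.mod_lt _ (NeZero.pos p)), zero_add]
        rw [hdiv, mem_range, runLen, card_runner, rankOn, ← image_tup V, filter_image,
          card_image_of_injective _ hVi]
        refine card_lt_card ((ssubset_iff_of_subset fun l hl => ?_).2 ⟨i, ?_, ?_⟩)
        · exact mem_filter.2 ⟨mem_univ _, (mem_filter.1 hl).2.1.trans hmod.symm⟩
        · exact mem_filter.2 ⟨mem_univ _, hmod.symm⟩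
        · exact fun hl => lt_irrefl _ (mem_filter.1 hl).2.2
      · rw [card_image_of_injective _ (pushDown_injective hVi), card_univ, Fintype.card_fin,
          card_eq_sum_runner (p := p), show ∑ r, (runner p (joinRunners p fun r =>
            range (runLen (p := p) (V : Finset ℕ) r)) r).card =
              ∑ r, runLen (p := p) (V : Finset ℕ) r from
            sum_congr rfl fun r _ => by rw [runner_joinRunners, card_range]]
        exact ((card_eq_sum_runner (p := p) (V : Finset ℕ)).symm.trans (mem_wSets.1 V.2).1).le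
    rw [key, key, hS]
  have hSp := pushDown_injective (p := p) hSi
  have hUp := pushDown_injective (p := p) hUi
  refine ⟨(a : ℤ) * (sgnV (pushDown p (tup S)) * sgnV (pushDown p (tup U))), fun m => ?_, ?_⟩
  · have hsq : sgnV (pushDown p (tup U)) * sgnV (pushDown p (tup U)) = 1 := by
      rw [sgnV, ← Int.sign_mul, Int.sign_eq_one_iff_pos]
      exact mul_self_pos.2 fun h => sgnV_ne_zero hUp (by rw [sgnV, h, Int.sign_zero])
    rw [ha, F_eq_sgnV_mul_Gset m hSp, F_eq_sgnV_mul_Gset m hUp, hset]
    linear_combination ((a : ℤ) * sgnV (pushDown p (tup S)) *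
      Gset N m (univ.image (pushDown p (tup U)))) * hsq.symm
  · have habs : ∀ γ : Fin N → ℕ, Function.Injective γ → (sgnV γ).natAbs = 1 := fun γ hγ =>
      Int.natAbs_sign_of_ne_zero fun h => sgnV_ne_zero hγ (by rw [sgnV, h, Int.sign_zero])
    rw [Int.natAbs_mul, Int.natAbs_mul, habs _ hSp, habs _ hUp, Int.natAbs_natCast, one_mul,
      mul_one, haq]

/-- Some value at the core is prime to `p`. -/
theorem exists_rest_not_dvd (U : ↥(wSets N n)) {w : ℕ}
    (hw : base N + n = coreBase p (runLen (p := p) (U : Finset ℕ)) + p * w) (hpw : p * w ≤ n)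
    {x : Perm (Fin n)} (hct : x.cycleType = Multiset.replicate w p) :
    ∃ v : Perm (Fin n), (∀ a ∈ x.support, v a = a) ∧
      ¬ (p : ℤ) ∣ F (restParts p w v) (pushDown p (tup U)) := by
  classical
  haveI : NeZero p := ⟨hp.out.ne_zero⟩
  set m := n - p * w with hm
  have hUi := (strictMono_tup U).injective
  obtain ⟨V, π, hV⟩ := exists_tup (N := N) (n := m) (pushDown_injective (p := p) hUi)
    (by rw [sum_pushDown hUi, tupLen_tup]; omega)
  have hFV : ∀ q, F q (tup V) = (Perm.sign π : ℤ) * F q (pushDown p (tup U)) := fun q => by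
    rw [← hV, F_comp]
  -- the core set has no gaps divisible by `p`
  have hlen : runLen (p := p) (V : Finset ℕ) = runLen (p := p) (U : Finset ℕ) := by
    rw [← tupLen_tup, ← hV, tupLen_comp, ← tupLen_tup]
    funext r
    exact congrArg card (filter_congr fun i _ => by
      rw [pushDown, Nat.add_mul_mod_self_left, Nat.mod_mod])
  have hw0 : base N + m = coreBase p (runLen (p := p) (V : Finset ℕ)) + p * 0 := by
    rw [hlen]; omega
  have hgap : (gapProd (V : Finset ℕ)).factorization p = 0 := by
    rw [factorization_gapProd_core V.2 hw0, Nat.zero_add]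
    have := sum_factorization_runner_le V.2 hw0
    simp only [Nat.factorial_zero, Nat.factorization_one, Finsupp.coe_zero, Pi.zero_apply] at this
    omega
  obtain ⟨d, hd, hdg⟩ := degree_formula V
  -- the column sum with the degree is `m!`
  have hcol : ∑ g : Perm (Fin m), (F (parts g) (tup V)) * F (parts g) (tup V) = (m ! : ℤ) := by
    have h := sum_theta_sq V
    simp only [theta] at h
    exact_mod_cast h
  by_contra hall
  push Not at hall
  have hdvd : ∀ g : Perm (Fin m), (p : ℤ) ∣ F (parts g) (tup V) := by
    intro g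
    rw [hFV]
    refine Dvd.dvd.mul_left ?_ _
    have hcard : Fintype.card (Fin m) = Fintype.card {a : Fin n // a ∉ x.support} := by
      rw [Fintype.card_fin, Fintype.card_subtype_compl, Fintype.card_fin, Fintype.card_coe,
        card_support_of_cycleType hct]
    set e := Fintype.equivOfCardEq hcard with he
    set g' : Perm (Fin n) := g.extendDomain e with hg'
    have hfix : ∀ a ∈ x.support, g' a = a := fun a ha =>
      Perm.extendDomain_apply_not_subtype _ _ (not_not.2 ha)
    have hcy : g'.cycleType = g.cycleType := Perm.cycleType_extendDomain e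
    have hsupp : g'.support.card = g.support.card := by
      rw [← Perm.sum_cycleType, hcy, Perm.sum_cycleType]
    have : restParts p w g' = parts g := by
      rw [restParts, parts, Perm.parts_partition, hcy, hsupp, Fintype.card_fin]
    rw [← this]
    exact hall g' hfix
  -- then `m ! / d` would be divisible by `p`
  obtain ⟨M, hM⟩ := Blocks.exists_isPModular_of_prime hp.out
  haveI : M.IsMaximal := hM.2.1
  haveI : M.IsPrime := Ideal.IsMaximal.isPrime inferInstance
  have hd0 : (d : ℂ) ≠ 0 := Nat.cast_ne_zero.2 fun h => by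
    rw [h, zero_mul] at hdg; exact m.factorial_ne_zero hdg.symm
  have hsum : ∑ g : Perm (Fin m), theta V g / theta V 1 * theta V g =
      ((gapProd (V : Finset ℕ) : ℕ) : ℂ) := by
    have h1 : theta V 1 = (d : ℂ) := by
      rw [theta, parts_one, hd, Int.cast_natCast]
    simp only [h1, div_mul_eq_mul_div, ← sum_div]
    rw [sum_theta_sq, div_eq_iff hd0, ← hdg, Nat.cast_mul, mul_comm]
  have hmem : MemLocalIdeal M (((gapProd (V : Finset ℕ) : ℕ) : ℂ)) := by
    rw [← hsum, ← sum_fiberwise_of_maps_to (g := ConjClasses.mk) (t := univ.image ConjClasses.mk)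
      fun g hg => mem_image_of_mem _ hg]
    refine memLocalIdeal_sum fun K hK => ?_
    obtain ⟨g₀, -, rfl⟩ := mem_image.1 hK
    have hf : univ.filter (fun g : Perm (Fin m) => ConjClasses.mk g = ConjClasses.mk g₀) =
        univ.filter (IsConj g₀) := filter_congr fun g _ => by
      rw [ConjClasses.mk_eq_mk_iff_isConj]; exact ⟨IsConj.symm, IsConj.symm⟩
    have hcf : IsClassFunction (Perm (Fin m)) (theta V) := isClassFunction_thetaFun _
    have e : ∀ g ∈ univ.filter (IsConj g₀), theta V g / theta V 1 * theta V g =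
        theta V g / theta V 1 * theta V g₀ := fun g hg => by
      simp only [theta]
      rw [parts_eq_of_isConj (mem_filter.1 hg).2]
    rw [hf, sum_congr rfl e, ← sum_mul, BlockLocal.sum_conj_eq_centralChar hcf]
    have hc : centralChar (theta V) g₀ = centralChar (chi V : Perm (Fin m) → ℂ) g₀ := by
      have h2 : sgn V ≠ 0 := fun h => by simpa [h] using sgn_mul_self V
      simp only [centralChar, chi_apply]
      field_simp
    rw [hc]
    refine memLocalIdeal_mul_left (memLocalRing_centralChar _ _) ?_
    rw [theta, memLocalIdeal_intCast_iff hM]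
    exact hdvd g₀
  have hp' := (Blocks.memLocalIdeal_natCast_iff hM _).1 hmem
  exact absurd hgap (hp.out.factorization_pos_of_dvd (gapProd_ne_zero _) hp').ne'

theorem card_filter_modEq_fixed {α β : Type*} [Group α] [Fintype β] [MulAction α β]
    (hα : IsPGroup p α) {P : β → Prop} [DecidablePred P] (hP : ∀ (a : α) b, P b → P (a • b))
    {Q : β → Prop} [DecidablePred Q] (hQ : ∀ b, Q b ↔ ∀ a : α, a • b = b) :
    ((univ.filter P).card : ZMod p) = ((univ.filter fun b => P b ∧ Q b).card : ZMod p) := by
  classical
  let S : SubMulAction α β := ⟨{b | P b}, fun a {b} hb => hP a b hb⟩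
  haveI : Finite S := Subtype.finite
  have h := hα.card_modEq_card_fixedPoints S
  rw [(ZMod.natCast_eq_natCast_iff' _ _ _)]
  have h1 : Nat.card S = (univ.filter P).card := by
    rw [← Fintype.card_subtype, ← Nat.card_eq_fintype_card]; rfl
  have h2 : Nat.card (MulAction.fixedPoints α S) = (univ.filter fun b => P b ∧ Q b).card := by
    rw [← Fintype.card_subtype, ← Nat.card_eq_fintype_card]
    exact Nat.card_congr ⟨fun s => ⟨(s : S), (s : S).2, (hQ _).2 fun a =>
        congrArg Subtype.val (s.2 a)⟩,
      fun b => ⟨⟨b, b.2.1⟩, fun a => Subtype.ext ((hQ _).1 b.2.2 a)⟩, fun _ => rfl, fun _ => rfl⟩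
  rw [h1, h2] at h
  exact h

/-- Sums of invariant functions over a `p`-group action only see the fixed points. -/
theorem dvd_sum_sub_sum_fixed {α β : Type*} [Group α] [Fintype β] [MulAction α β]
    (hα : IsPGroup p α) (s : Finset β) (hs : ∀ (a : α), ∀ b ∈ s, a • b ∈ s) (f : β → ℤ)
    (hf : ∀ (a : α) b, f (a • b) = f b) {Q : β → Prop} [DecidablePred Q]
    (hQ : ∀ b, Q b ↔ ∀ a : α, a • b = b) :
    (p : ℤ) ∣ ∑ b ∈ s, f b - ∑ b ∈ s.filter Q, f b := by
  classical
  rw [← ZMod.intCast_zmod_eq_zero_iff_dvd, Int.cast_sub, Int.cast_sum, Int.cast_sum, sub_eq_zero,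
    ← sum_fiberwise s (fun b => (f b : ZMod p)), ← sum_fiberwise (s.filter Q) (fun b => (f b : ZMod p))]
  haveI : NeZero p := ⟨hp.out.ne_zero⟩
  refine sum_congr rfl fun z _ => ?_
  rw [sum_congr rfl (g := fun _ => z) fun b hb => (mem_filter.1 hb).2,
    sum_congr (s₁ := (s.filter Q).filter fun b => (f b : ZMod p) = z) rfl (g := fun _ => z)
      fun b hb => (mem_filter.1 hb).2, sum_const, sum_const, nsmul_eq_mul, nsmul_eq_mul]
  congr 1
  have h := card_filter_modEq_fixed hα (P := fun b => b ∈ s ∧ (f b : ZMod p) = z)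
    (fun a b hb => ⟨hs a b hb.1, by rw [hf]; exact hb.2⟩) hQ
  rw [show s.filter (fun b => (f b : ZMod p) = z) =
      univ.filter fun b => b ∈ s ∧ (f b : ZMod p) = z by ext; simp,
    show (s.filter Q).filter (fun b => (f b : ZMod p) = z) =
      univ.filter fun b => (b ∈ s ∧ (f b : ZMod p) = z) ∧ Q b by ext; simp; tauto]
  exact h

variable {M : Ideal AlgInt} [M.IsPrime]

/-- Central characters congruent on the regular classes are congruent. -/
theorem sameBlock_of_regular {G : Type*} [Group G] [Finite G] (hM : IsPModular p M)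
    {χ ψ : IrrCharacter G} (h : ∀ g : G, ¬ p ∣ orderOf g →
      MemLocalIdeal M (centralChar (χ : G → ℂ) g - centralChar (ψ : G → ℂ) g)) :
    SameBlock M (χ : G → ℂ) (ψ : G → ℂ) := by
  classical
  haveI := Fintype.ofFinite G
  set B := blockOf M (χ : G → ℂ) with hBdef
  have hB := isPBlock_blockOf (M := M) χ
  have key : MemLocalIdeal M
      (omega (χ : G → ℂ) (blockIdem B) - omega (ψ : G → ℂ) (blockIdem B)) := by
    simp only [omega_eq_sum, coeff_blockIdem, sum_div, mul_div_assoc]
    rw [← sum_sub_distrib, ← sum_fiberwise_of_maps_to (g := ConjClasses.mk)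
      (t := univ.image ConjClasses.mk) fun g hg => mem_image_of_mem _ hg]
    refine memLocalIdeal_sum fun K hK => ?_
    obtain ⟨g₀, -, rfl⟩ := mem_image.1 hK
    have hf : univ.filter (fun g : G => ConjClasses.mk g = ConjClasses.mk g₀) =
        univ.filter (IsConj g₀) := filter_congr fun g _ => by
      rw [ConjClasses.mk_eq_mk_iff_isConj]; exact ⟨IsConj.symm, IsConj.symm⟩
    rw [hf, sum_congr rfl fun g hg => by
      rw [← blockCoeff_eq_of_isConj B (mem_filter.1 hg).2, ← mul_sub],
      ← mul_sum, sum_sub_distrib,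
      BlockLocal.sum_conj_eq_centralChar (IsIrrCharacter.isClassFunction χ.2),
      BlockLocal.sum_conj_eq_centralChar (IsIrrCharacter.isClassFunction ψ.2)]
    by_cases hreg : p ∣ orderOf g₀
    · rw [blockCoeff_eq_zero_of_dvd_orderOf hM hB hreg, zero_mul]; exact memLocalIdeal_zero
    · exact memLocalIdeal_mul_left (memLocalRing_blockCoeff hB _) (h g₀ hreg)
  rw [omega_blockIdem, omega_blockIdem, if_pos (mem_blockOf_self χ)] at key
  by_contra hne
  rw [if_neg fun hψ => hne (sameBlock_of_mem hB (mem_blockOf_self χ) hψ), sub_zero] at key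
  exact not_memLocalIdeal_one key

/-- The key congruence. -/
theorem memLocalIdeal_mult_mul_sub (hM : IsPModular p M) {U S : ↥(wSets N n)} {w : ℕ}
    {a : ℤ} (ha : ∀ m, F (Multiset.replicate w p + m) (tup S) = a * F m (pushDown p (tup U)))
    {x v : Perm (Fin n)} (hct : x.cycleType = Multiset.replicate w p)
    (hv : ∀ b ∈ x.support, v b = b) {g : Perm (Fin n)} (hg : ¬ p ∣ orderOf g) :
    MemLocalIdeal M ((a : ℂ) *
      (centralChar (chi S : Perm (Fin n) → ℂ) g * (F (restParts p w v) (pushDown p (tup U)) : ℂ) -
        ((∑ z ∈ univ.filter (fun z => IsConj g z ∧ ∀ b ∈ x.support, z b = b),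
          F (restParts p w (z * v)) (pushDown p (tup U)) : ℤ) : ℂ))) := by
  classical
  set y := x * v with hy
  set s := univ.filter (IsConj g) with hs
  set E := cycleGroup x with hE
  obtain ⟨hcard, -, -⟩ := cycleGroup_spec hct
  have hEv : ∀ e ∈ E, Commute e v := by
    intro e he
    rw [hE, cycleGroup_eq_iSup] at he
    have hle : (⨆ c : x.cycleFactorsFinset, Subgroup.zpowers (c : Perm (Fin n))) ≤
        Subgroup.centralizer ({v} : Set (Perm (Fin n))) := by
      refine iSup_le fun c => Subgroup.zpowers_le.2 ?_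
      rw [Subgroup.mem_centralizer_singleton_iff]
      refine (Perm.Disjoint.commute fun b => ?_).eq
      by_cases hb : b ∈ (c : Perm (Fin n)).support
      · exact Or.inr (hv b (Perm.mem_cycleFactorsFinset_support_le c.2 hb))
      · exact Or.inl (Perm.notMem_support.1 hb)
    exact Subgroup.mem_centralizer_singleton_iff.1 (hle he)
  have hEy : ∀ e ∈ E, e * y = y * e := by
    intro e he
    have h1 : Commute e x :=
      Subgroup.mem_centralizer_singleton_iff.1 (cycleGroup_le_centralizer x he)
    exact (h1.mul_right (hEv e he)).eq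
  letI : MulAction E (Perm (Fin n)) :=
    MulAction.compHom _ ((MulAut.conj : Perm (Fin n) →* MulAut (Perm (Fin n))).comp E.subtype)
  have hsmul : ∀ (e : E) (z : Perm (Fin n)),
      e • z = (e : Perm (Fin n)) * z * (e : Perm (Fin n))⁻¹ := fun e z => rfl
  have hQ : ∀ z, (∀ e : E, e • z = z) ↔ ∀ e ∈ E, z * e = e * z := by
    intro z
    refine ⟨fun h e he => ?_, fun h e => ?_⟩
    · have := h ⟨e, he⟩
      rw [hsmul, mul_inv_eq_iff_eq_mul] at this
      exact this.symm
    · rw [hsmul, ← h e e.2, mul_inv_cancel_right]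
  have hdvd := dvd_sum_sub_sum_fixed (p := p) (IsPGroup.of_card hcard) s
    (fun e z hz => by
      rw [hs, mem_filter] at hz ⊢
      exact ⟨mem_univ _, hz.2.trans (isConj_iff.2 ⟨(e : Perm (Fin n)), (hsmul e z).symm⟩)⟩)
    (fun z => F (parts (z * y)) (tup S)) (fun e z => by
      refine congrArg (fun q => F q (tup S)) (parts_eq_of_isConj (isConj_iff.2
        ⟨(e : Perm (Fin n))⁻¹, ?_⟩))
      rw [hsmul, inv_inv, mul_assoc ((e : Perm (Fin n)) * z) _ y,
        show ((e : Perm (Fin n))⁻¹ * y) = y * (e : Perm (Fin n))⁻¹ from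
          (Commute.inv_left (hEy _ e.2)).eq]
      group) (Q := fun z => ∀ e ∈ E, z * e = e * z) fun z => (hQ z).symm
  have hfix : s.filter (fun z => ∀ e ∈ E, z * e = e * z) =
      univ.filter (fun z => IsConj g z ∧ ∀ b ∈ x.support, z b = b) := by
    ext z
    simp only [hs, mem_filter, mem_univ, true_and]
    refine and_congr_right fun hz => ⟨fun h => fix_support_of_commute hct ?_ h, fun h e he => ?_⟩
    · obtain ⟨d, rfl⟩ := isConj_iff.1 hz
      rwa [← MulAut.conj_apply, MulEquiv.orderOf_eq]
    · have hd : e.Disjoint z := fun b => by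
        by_cases hb : b ∈ x.support
        · exact Or.inr (h b hb)
        · refine Or.inl ?_
          rw [hE, cycleGroup_eq_iSup] at he
          have hle : (⨆ c : x.cycleFactorsFinset, Subgroup.zpowers (c : Perm (Fin n))) ≤
              MulAction.stabilizer (Perm (Fin n)) b := iSup_le fun c =>
            Subgroup.zpowers_le.2 (MulAction.mem_stabilizer_iff.2 (Perm.notMem_support.1 fun hc =>
              hb (Perm.mem_cycleFactorsFinset_support_le c.2 hc)))
          exact MulAction.mem_stabilizer_iff.1 (hle he)
      exact hd.commute.eq.symm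
  rw [hfix] at hdvd
  have hsum : ((∑ z ∈ s, F (parts (z * y)) (tup S) : ℤ) : ℂ) =
      centralChar (chi S : Perm (Fin n) → ℂ) g *
        ((a : ℂ) * (F (restParts p w v) (pushDown p (tup U)) : ℂ)) := by
    have h := BrauerCharacters.sum_isConj_mul (chi S) g y
    simp only [chi_apply, theta, ← mul_sum, mul_left_comm _ (sgn S)] at h
    have h2 : sgn S ≠ 0 := fun h => by simpa [h] using sgn_mul_self S
    rw [hy, parts_mul_of_disjoint hct hv, ha, ← hy, Int.cast_mul] at h
    rw [Int.cast_sum]
    convert mul_left_cancel₀ h2 h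
  have hrest : (∑ z ∈ univ.filter (fun z => IsConj g z ∧ ∀ b ∈ x.support, z b = b),
      F (parts (z * y)) (tup S)) = a * ∑ z ∈ univ.filter
        (fun z => IsConj g z ∧ ∀ b ∈ x.support, z b = b),
          F (restParts p w (z * v)) (pushDown p (tup U)) := by
    rw [mul_sum]
    refine sum_congr rfl fun z hz => ?_
    obtain ⟨-, -, hzb⟩ := mem_filter.1 hz
    have hd : z.Disjoint x := fun b => by
      by_cases hb : b ∈ x.support
      · exact Or.inl (hzb b hb)
      · exact Or.inr (Perm.notMem_support.1 hb)
    rw [hy, ← mul_assoc, hd.commute.eq, mul_assoc, parts_mul_of_disjoint hct (fun b hb => by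
      rw [Perm.mul_apply, hv b hb, hzb b hb]), ha]
  rw [hrest] at hdvd
  have hmem := (memLocalIdeal_intCast_iff hM _).2 hdvd
  rw [Int.cast_sub, hsum, Int.cast_mul] at hmem
  convert hmem using 1
  ring

/-- Characters with quotients of `p'`-degree over one core share a block. -/
theorem sameBlock_of_unit_mult (hM : IsPModular p M) {U S T : ↥(wSets N n)} {w : ℕ}
    (hw : base N + n = coreBase p (runLen (p := p) (U : Finset ℕ)) + p * w) (hpw : p * w ≤ n)
    (hS : runLen (p := p) (S : Finset ℕ) = runLen (p := p) (U : Finset ℕ))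
    (hS0 : (quotGap p (S : Finset ℕ)).factorization p = (w !).factorization p)
    (hT : runLen (p := p) (T : Finset ℕ) = runLen (p := p) (U : Finset ℕ))
    (hT0 : (quotGap p (T : Finset ℕ)).factorization p = (w !).factorization p) :
    SameBlock M (chi S : Perm (Fin n) → ℂ) (chi T : Perm (Fin n) → ℂ) := by
  classical
  obtain ⟨x, hct, -, -⟩ := exists_cycles_apply_ne_zero U hw hpw
  obtain ⟨v, hv, hf⟩ := exists_rest_not_dvd U hw hpw hct
  have hunit : ∀ V : ↥(wSets N n), runLen (p := p) (V : Finset ℕ) =
      runLen (p := p) (U : Finset ℕ) →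
      (quotGap p (V : Finset ℕ)).factorization p = (w !).factorization p →
      ∃ a : ℤ, (∀ m, F (Multiset.replicate w p + m) (tup V) = a * F m (pushDown p (tup U))) ∧
        ¬ (p : ℤ) ∣ a := by
    intro V hV hV0
    obtain ⟨a, ha, hagap⟩ := exists_signed_mult hw hV
    refine ⟨a, ha, fun hd => ?_⟩
    have ha0 : a.natAbs ≠ 0 := fun h => by
      rw [h, zero_mul] at hagap; exact w.factorial_ne_zero hagap.symm
    have h := congrArg (fun z : ℕ => z.factorization p) hagap
    simp only [Nat.factorization_mul ha0 (quotGap_ne_zero _), Finsupp.add_apply, hV0] at h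
    have := hp.out.factorization_pos_of_dvd ha0 (Int.natCast_dvd.1 hd)
    omega
  obtain ⟨a, ha, hpa⟩ := hunit S hS hS0
  obtain ⟨b, hb, hpb⟩ := hunit T hT hT0
  refine sameBlock_of_regular hM fun g hg => ?_
  set f := F (restParts p w v) (pushDown p (tup U)) with hfdef
  have h1 := memLocalIdeal_mult_mul_sub hM ha hct hv hg
  have h2 := memLocalIdeal_mult_mul_sub hM hb hct hv hg
  set d := centralChar (chi S : Perm (Fin n) → ℂ) g - centralChar (chi T : Perm (Fin n) → ℂ) g
    with hd
  have h3 : MemLocalIdeal M (((a * b * f : ℤ) : ℂ) * d) := by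
    have := memLocalIdeal_sub (memLocalIdeal_mul_left (memLocalRing_intCast (M := M) b) h1)
      (memLocalIdeal_mul_left (memLocalRing_intCast (M := M) a) h2)
    convert this using 1
    rw [hd, ← hfdef]
    push_cast
    ring
  have hnd : ¬ (p : ℤ) ∣ a * b * f := fun h => by
    have hpI := Nat.prime_iff_prime_int.1 hp.out
    rcases hpI.dvd_mul.1 h with h | h
    · rcases hpI.dvd_mul.1 h with h | h
      · exact hpa h
      · exact hpb h
    · exact hf h
  obtain ⟨u, k, huk⟩ : ∃ u k : ℤ, u * (a * b * f) + k * p = 1 :=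
    ((Nat.prime_iff_prime_int.1 hp.out).coprime_iff_not_dvd.2 hnd).symm
  have hR : MemLocalRing M d := by
    rw [hd, sub_eq_add_neg]
    exact Subring.add_mem (locRing M) (memLocalRing_centralChar _ _)
      (Subring.neg_mem (locRing M) (memLocalRing_centralChar _ _))
  have h4 : MemLocalIdeal M (((p : ℤ) : ℂ) * d) := by
    rw [mul_comm]
    exact memLocalIdeal_mul_left hR ((memLocalIdeal_intCast_iff hM _).2 dvd_rfl)
  have h5 := memLocalIdeal_add (memLocalIdeal_mul_left (memLocalRing_intCast (M := M) u) h3)
    (memLocalIdeal_mul_left (memLocalRing_intCast (M := M) k) h4)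
  convert h5 using 1
  rw [← mul_assoc, ← mul_assoc, ← Int.cast_mul, ← Int.cast_mul, ← add_mul, ← Int.cast_add, huk,
    Int.cast_one, one_mul]

end CfsgLib.SymChar
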