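import Cfsg.Agent.Lib.SymChar.Hooks
import Cfsg.Agent.Lib.SymChar.Main

/-!
# The multiplicity at `p`-cycles

At `w` cycles of length `p` a character over a core is the core times the degree of the quotient.
-/

set_option autoImplicit false
set_option linter.unusedSectionVars false
set_option linter.style.haveILetI false

namespace CfsgLib.SymChar

open Equiv Finset
open scoped Nat

variable {p N n : ℕ}

/-- The product of the gaps on all runners. -/
def quotGap (p : ℕ) (S : Finset ℕ) : ℕ := ∏ r : Fin p, gapProd (runner p S r)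

theorem quotGap_ne_zero (S : Finset ℕ) : quotGap p S ≠ 0 :=
  prod_ne_zero_iff.2 fun _ _ => gapProd_ne_zero _

/-- The branching rule for gaps. -/
theorem sum_gapProd_div (R : Finset ℕ) {c e : ℕ} (hR : R ∈ wSets c e) :
    ∑ q ∈ R.filter (fun q => 1 ≤ q ∧ q - 1 ∉ R),
      (gapProd R : ℚ) / gapProd (insert (q - 1) (R.erase q)) = (e : ℚ) := by
  classical
  obtain ⟨hc, hsum⟩ := mem_wSets.1 hR
  have hmove : ∀ q ∈ R.filter (fun q => 1 ≤ q ∧ q - 1 ∉ R),
      1 ≤ e ∧ insert (q - 1) (R.erase q) ∈ wSets c (e - 1) := by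
    intro q hq
    obtain ⟨hqR, hq1, hq2⟩ := mem_filter.1 hq
    have hn : q - 1 ∉ R.erase q := fun h => hq2 (mem_of_mem_erase h)
    have hc' : (insert (q - 1) (R.erase q)).card = c := by
      rw [card_insert_of_notMem hn, card_erase_of_mem hqR, hc]
      have := card_pos.2 ⟨q, hqR⟩
      omega
    have h := base_le_sum (insert (q - 1) (R.erase q))
    rw [hc', sum_insert hn] at h
    have h2 := add_sum_erase R (fun y => y) hqR
    rw [hsum] at h2
    refine ⟨by omega, mem_wSets.2 ⟨hc', ?_⟩⟩
    rw [sum_insert hn]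
    omega
  rcases Nat.eq_zero_or_pos e with he | he
  · rw [he, Nat.cast_zero]
    exact sum_eq_zero fun q hq => absurd (hmove q hq).1 (by omega)
  obtain ⟨e, rfl⟩ : ∃ e', e = e' + 1 := ⟨e - 1, by omega⟩
  have hdeg : ∀ {k : ℕ} {T : Finset ℕ}, T ∈ wSets c k →
      (Gset c (Multiset.replicate k 1) T : ℚ) = (k ! : ℚ) / gapProd T := by
    intro k T hT
    rw [eq_div_iff (Nat.cast_ne_zero.2 (gapProd_ne_zero T))]
    have h := F_ones_mul_gapProd (⟨T, hT⟩ : ↥(wSets c k))
    rw [← Gset_tup] at h
    exact_mod_cast h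
  have hrec : Gset c (Multiset.replicate (e + 1) 1) R =
      ∑ q ∈ R.filter (fun q => 1 ≤ q ∧ q - 1 ∉ R),
        Gset c (Multiset.replicate e 1) (insert (q - 1) (R.erase q)) := by
    rw [Multiset.replicate_succ, Gset_cons one_pos _ hc, sum_filter]
    refine sum_congr rfl fun q _ => ?_
    split_ifs with h
    · rw [show (R.filter fun z => q - 1 < z ∧ z < q) = ∅ from
        filter_eq_empty_iff.2 fun z _ h' => by omega, card_empty, pow_zero, one_mul]
    · rfl
  have h := congrArg (fun z : ℤ => (z : ℚ)) hrec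
  simp only [Int.cast_sum] at h
  rw [hdeg hR] at h
  have hR0 : (gapProd R : ℚ) ≠ 0 := Nat.cast_ne_zero.2 (gapProd_ne_zero R)
  have he0 : ((e ! : ℕ) : ℚ) ≠ 0 := Nat.cast_ne_zero.2 e.factorial_ne_zero
  rw [sum_congr rfl fun q hq => hdeg (by simpa using (hmove q hq).2), eq_comm,
    eq_div_iff hR0, sum_mul, Nat.factorial_succ, Nat.cast_mul] at h
  refine mul_right_cancel₀ he0 ?_
  rw [sum_mul, ← h]
  exact sum_congr rfl fun q _ => by ring

variable [NeZero p]

theorem runner_move (S : Finset ℕ) {x : ℕ} (hx : x ∈ S) (hpx : p ≤ x) (hfree : x - p ∉ S)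
    (r : Fin p) :
    runner p (insert (x - p) (S.erase x)) r =
      if (r : ℕ) = x % p then insert (x / p - 1) ((runner p S r).erase (x / p))
      else runner p S r := by
  classical
  have hp := NeZero.pos p
  have hm : (x - p) % p = x % p := (Nat.mod_eq_sub_mod hpx).symm
  have hd : (x - p) / p = x / p - 1 := by
    have := Nat.add_div_right (x - p) hp
    rw [Nat.sub_add_cancel hpx] at this
    rw [this]
    exact (Nat.add_sub_cancel (n := (x - p) / p) (m := 1)).symm
  ext y
  by_cases hr : (r : ℕ) = x % p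
  · rw [if_pos hr, mem_insert, mem_erase]
    simp only [runner, mem_image, mem_filter, mem_insert, mem_erase]
    constructor
    · rintro ⟨z, ⟨rfl | ⟨hzx, hz⟩, hzr⟩, rfl⟩
      · exact Or.inl hd
      · refine Or.inr ⟨fun e => hzx ?_, z, ⟨hz, hzr⟩, rfl⟩
        rw [← Nat.div_add_mod z p, ← Nat.div_add_mod x p, e, hzr, hr]
    · rintro (rfl | ⟨hne, z, ⟨hz, hzr⟩, rfl⟩)
      · exact ⟨x - p, ⟨Or.inl rfl, hm.trans hr.symm⟩, hd⟩
      · exact ⟨z, ⟨Or.inr ⟨fun e => hne (by rw [e]), hz⟩, hzr⟩, rfl⟩
  · rw [if_neg hr]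
    simp only [runner, mem_image, mem_filter, mem_insert, mem_erase]
    constructor
    · rintro ⟨z, ⟨rfl | ⟨-, hz⟩, hzr⟩, rfl⟩
      · exact absurd (hm.symm.trans hzr).symm hr
      · exact ⟨z, ⟨hz, hzr⟩, rfl⟩
    · rintro ⟨z, ⟨hz, hzr⟩, rfl⟩
      exact ⟨z, ⟨Or.inr ⟨fun e => hr (by rw [← e, hzr]), hz⟩, hzr⟩, rfl⟩

/-- The branching rule on all runners. -/
theorem sum_quotGap_div {S : Finset ℕ} (hS : S ∈ wSets N n) {w : ℕ}
    (hw : base N + n = coreBase p (runLen (p := p) S) + p * w) :
    ∑ x ∈ S.filter (fun x => p ≤ x ∧ x - p ∉ S),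
      (quotGap p S : ℚ) / quotGap p (insert (x - p) (S.erase x)) = (w : ℚ) := by
  classical
  have hp := NeZero.pos p
  rw [← sum_excess hS hw, Nat.cast_sum]
  rw [← sum_fiberwise (g := fun x : ℕ => (⟨x % p, Nat.mod_lt _ hp⟩ : Fin p))]
  refine sum_congr rfl fun r _ => ?_
  rw [← sum_gapProd_div (runner p S r) (runner_mem_wSets (c := runLen (p := p) S) rfl r)]
  refine sum_bij' (fun x _ => x / p) (fun q _ => p * q + (r : ℕ)) (fun x hx => ?_) (fun q hq => ?_)
    (fun x hx => ?_) (fun q _ => ?_) fun x hx => ?_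
  · obtain ⟨hx', hr⟩ := mem_filter.1 hx
    obtain ⟨hxS, hpx, hfree⟩ := mem_filter.1 hx'
    have hr' : x % p = (r : ℕ) := congrArg Fin.val hr
    refine mem_filter.2 ⟨mem_image.2 ⟨x, mem_filter.2 ⟨hxS, hr'⟩, rfl⟩,
      Nat.div_pos hpx hp, fun h => hfree ?_⟩
    obtain ⟨z, hz, hzq⟩ := mem_image.1 h
    obtain ⟨hz1, hz2⟩ := mem_filter.1 hz
    have e : z = x - p := by
      have hzq' : z / p = x / p - 1 := hzq
      have h1 := Nat.div_add_mod z p
      have h2 := Nat.div_add_mod x p
      have h3 : 0 < x / p := Nat.div_pos hpx hp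
      rw [hzq', hz2] at h1
      rw [hr'] at h2
      have h4 : p * (x / p - 1) + p = p * (x / p) := by
        rw [← Nat.mul_succ]; congr 1; omega
      omega
    exact e ▸ hz1
  · obtain ⟨hqR, hq1, hq2⟩ := mem_filter.1 hq
    obtain ⟨z, hz, hzq⟩ := mem_image.1 hqR
    obtain ⟨hz1, hz2⟩ := mem_filter.1 hz
    have hmod : (p * q + (r : ℕ)) % p = (r : ℕ) := by
      rw [Nat.mul_add_mod, Nat.mod_eq_of_lt r.2]
    have h4 : p * (q - 1) + p = p * q := by
      rw [← Nat.mul_succ]; congr 1; omega
    refine mem_filter.2 ⟨mem_filter.2 ⟨?_, by omega, fun h => hq2 ?_⟩, Fin.ext hmod⟩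
    · have h1 := Nat.div_add_mod z p
      rw [hz2, show z / p = q from hzq] at h1
      exact h1 ▸ hz1
    · rw [show p * q + (r : ℕ) - p = p * (q - 1) + (r : ℕ) by omega] at h
      refine mem_image.2 ⟨_, mem_filter.2 ⟨h, ?_⟩, ?_⟩
      · rw [Nat.mul_add_mod, Nat.mod_eq_of_lt r.2]
      · show (p * (q - 1) + (r : ℕ)) / p = q - 1
        rw [Nat.mul_add_div hp, Nat.div_eq_of_lt r.2, add_zero]
  · obtain ⟨-, hr⟩ := mem_filter.1 hx
    show p * (x / p) + (r : ℕ) = x
    rw [← show x % p = (r : ℕ) from congrArg Fin.val hr, Nat.div_add_mod]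
  · show (p * q + (r : ℕ)) / p = q
    rw [Nat.mul_add_div hp, Nat.div_eq_of_lt r.2, add_zero]
  · obtain ⟨hx', hr⟩ := mem_filter.1 hx
    obtain ⟨hxS, hpx, hfree⟩ := mem_filter.1 hx'
    have hr' : (r : ℕ) = x % p := (congrArg Fin.val hr).symm
    simp only [quotGap, Nat.cast_prod]
    rw [← mul_prod_erase univ _ (mem_univ r),
      ← mul_prod_erase univ (fun a => (gapProd (runner p (insert (x - p) (S.erase x)) a) : ℚ))
        (mem_univ r), runner_move S hxS hpx hfree r, if_pos hr',
      prod_congr rfl (g := fun a => (gapProd (runner p S a) : ℚ))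
        (fun a ha => by
          rw [runner_move S hxS hpx hfree a, if_neg fun e => (ne_of_mem_erase ha)
            (Fin.ext (e.trans hr'.symm))] : ∀ a ∈ univ.erase r,
          (gapProd (runner p (insert (x - p) (S.erase x)) a) : ℚ) = gapProd (runner p S a))]
    rw [mul_div_mul_right]
    exact prod_ne_zero_iff.2 fun a _ => Nat.cast_ne_zero.2 (gapProd_ne_zero _)

theorem tupLen_eq_runLen_image {β : Fin N → ℕ} (hβ : Function.Injective β) :
    tupLen p β = runLen (p := p) (univ.image β) := by
  funext r
  rw [runLen, card_runner, filter_image, card_image_of_injective _ hβ, tupLen]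

/-- At `w` cycles of length `p` the multiplicity of the core is the degree of the quotient. -/
theorem exists_mult : ∀ (w : ℕ) (β : Fin N → ℕ), Function.Injective β →
    ∑ i, β i = ∑ i, pushDown p β i + p * w →
      ∃ a : ℕ, (∀ m, F (Multiset.replicate w p + m) β = (a : ℤ) * F m (pushDown p β)) ∧
        a * quotGap p (univ.image β) = w ! := by
  intro w
  induction w with
  | zero =>
    intro β hβ hsum
    have hsum' : ∑ i, pushDown p β i = ∑ i, β i := by omega
    have h := (sum_eq_sum_iff_of_le fun i _ => pushDown_le (p := p) hβ i).1 hsum'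
    have e : pushDown p β = β := funext fun i => h i (mem_univ i)
    refine ⟨1, fun m => by rw [e]; simp, ?_⟩
    rw [one_mul, Nat.factorial_zero, quotGap]
    refine prod_eq_one fun r _ => ?_
    have hmem : univ.image β ∈ wSets N ((∑ i, β i) - base N) := by
      have hb := base_le_sum (univ.image β)
      rw [card_image_of_injective _ hβ, card_univ, Fintype.card_fin,
        sum_image fun a _ b _ e => hβ e] at hb
      rw [mem_wSets, card_image_of_injective _ hβ, card_univ, Fintype.card_fin,
        sum_image fun a _ b _ e => hβ e]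
      exact ⟨rfl, by omega⟩
    have hw0 : base N + ((∑ i, β i) - base N) =
        coreBase p (runLen (p := p) (univ.image β)) + p * 0 := by
      rw [← (mem_wSets.1 hmem).2, sum_image fun a _ b _ e => hβ e, ← tupLen_eq_runLen_image hβ,
        ← sum_pushDown hβ]
      omega
    have hex := sum_excess hmem hw0
    have hr := runner_mem_wSets (p := p) (S := univ.image β) rfl r
    have h0 : excess p (univ.image β) r = 0 := (sum_eq_zero_iff.1 hex) r (mem_univ r)
    rw [h0] at hr
    exact Nat.eq_one_of_dvd_one (by simpa using gapProd_dvd hr)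
  | succ w ih =>
    intro β hβ hsum
    classical
    set S := univ.image β with hS
    have hmemS : ∀ z, z ∈ S ↔ ∃ i, β i = z := fun z => by simp [hS]
    have key : ∀ i, ∃ a : ℕ,
        (∀ m, (if p ≤ β i then F (Multiset.replicate w p + m) (Function.update β i (β i - p))
          else 0) = (a : ℤ) * F m (pushDown p β)) ∧
        (a : ℚ) * quotGap p S = if p ≤ β i ∧ β i - p ∉ S then
          (w ! : ℚ) * ((quotGap p S : ℚ) / quotGap p (insert (β i - p) (S.erase (β i)))) else 0 := by
      intro i
      by_cases hi : p ≤ β i ∧ β i - p ∉ S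
      · obtain ⟨hpi, hfree⟩ := hi
        have hfree' : ∀ l, β l ≠ β i - p := fun l e => hfree ((hmemS _).2 ⟨l, e⟩)
        have hinj : Function.Injective (Function.update β i (β i - p)) := by
          intro a b e
          simp only [Function.update_apply] at e
          split_ifs at e with ha hb hb
          · rw [ha, hb]
          · exact absurd e.symm (hfree' b)
          · exact absurd e (hfree' a)
          · exact hβ e
        have hu := pushDown_update hβ hpi hfree'
        obtain ⟨a, hF, ha⟩ := ih _ hinj (by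
          rw [hu, sum_update_of_mem (mem_univ i), ← erase_eq]
          have := add_sum_erase univ β (mem_univ i)
          rw [Nat.mul_succ] at hsum
          omega)
        refine ⟨a, fun m => by rw [if_pos hpi, hF, hu], ?_⟩
        rw [if_pos ⟨hpi, hfree⟩]
        have himg : univ.image (Function.update β i (β i - p)) =
            insert (β i - p) (S.erase (β i)) := by
          ext z
          simp only [mem_image, mem_univ, true_and, mem_insert, mem_erase, hmemS,
            Function.update_apply]
          constructor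
          · rintro ⟨b, rfl⟩
            split_ifs with h
            · exact Or.inl rfl
            · exact Or.inr ⟨fun e => h (hβ e), b, rfl⟩
          · rintro (rfl | ⟨hne, b, rfl⟩)
            · exact ⟨i, if_pos rfl⟩
            · exact ⟨b, if_neg fun h => hne (congrArg β h)⟩
        rw [himg] at ha
        have h0 : (quotGap p (insert (β i - p) (S.erase (β i))) : ℚ) ≠ 0 :=
          Nat.cast_ne_zero.2 (quotGap_ne_zero _)
        rw [← ha, Nat.cast_mul]
        field_simp
      · refine ⟨0, fun m => ?_, by rw [if_neg hi]; simp⟩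
        rw [Nat.cast_zero, zero_mul]
        split_ifs with hpi
        · refine F_eq_zero_of_not_injective _ fun hinj => ?_
          obtain ⟨l, hl⟩ := (hmemS _).1 (not_not.1 fun h => hi ⟨hpi, h⟩)
          have hli : l ≠ i := fun e => by
            have := NeZero.pos p
            rw [e] at hl; omega
          exact hli (hinj (by rw [Function.update_of_ne hli, Function.update_self, hl]))
        · rfl
    choose a hF ha using key
    refine ⟨∑ i, a i, fun m => ?_, ?_⟩
    · rw [Multiset.replicate_succ, Multiset.cons_add, F_cons, sum_congr rfl fun i _ => hF i m,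
        Nat.cast_sum, sum_mul]
    · have hmem : S ∈ wSets N ((∑ i, β i) - base N) := by
        have hb := base_le_sum S
        rw [hS, card_image_of_injective _ hβ, card_univ, Fintype.card_fin,
          sum_image fun a _ b _ e => hβ e] at hb
        rw [mem_wSets, hS, card_image_of_injective _ hβ, card_univ, Fintype.card_fin,
          sum_image fun a _ b _ e => hβ e]
        exact ⟨rfl, by omega⟩
      have hw : base N + ((∑ i, β i) - base N) = coreBase p (runLen (p := p) S) + p * (w + 1) := by
        rw [← (mem_wSets.1 hmem).2, hS, sum_image fun a _ b _ e => hβ e,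
          ← tupLen_eq_runLen_image hβ, ← sum_pushDown hβ]
        exact hsum
      have h := sum_quotGap_div hmem hw
      rw [sum_filter, hS, sum_image fun a _ b _ e => hβ e, ← hS] at h
      suffices hq : ((∑ i, a i : ℕ) : ℚ) * quotGap p S = ((w + 1) ! : ℚ) by exact_mod_cast hq
      rw [Nat.cast_sum, sum_mul, sum_congr rfl fun i _ => ha i, Nat.factorial_succ, Nat.cast_mul,
        ← h, sum_mul]
      exact sum_congr rfl fun i _ => by split_ifs <;> ring

end CfsgLib.SymChar
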