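import Mathlib
import Cfsg.Prelude.Def_Characters
import Cfsg.Prelude.Def_Blocks
import Cfsg.Agent.Lib.CharTheory.Linear
import Cfsg.Agent.Lib.Frobenius.Induce
import Cfsg.Agent.Lib.Blocks.DefectZero
import Cfsg.Agent.Lib.CharDegreesTheory.IrrComp

/-!
# Sylow subgroups of symmetric and alternating groups on `p w` points

They are wreath products of the cyclic group of order `p` with a `p`-group on `w` points, and
have a character of degree `p` when they are not abelian.
-/

set_option autoImplicit false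
set_option linter.unusedSectionVars false
set_option linter.style.haveILetI false

namespace CfsgLib.SymChar.Wreath

open Equiv Finset Cfsg CfsgLib.CharTheory

variable {p w : ℕ}

/-- Translation in the second coordinate. -/
def shift (f : Fin w → ZMod p) : Perm (Fin w × ZMod p) :=
  Equiv.prodCongrRight fun i => Equiv.addRight (f i)

/-- A permutation of the first coordinate. -/
def onTop (p : ℕ) (σ : Perm (Fin w)) : Perm (Fin w × ZMod p) :=
  Equiv.prodCongrLeft fun _ => σ

theorem shift_apply (f : Fin w → ZMod p) (i : Fin w) (a : ZMod p) :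
    shift f (i, a) = (i, a + f i) := rfl

theorem onTop_apply (σ : Perm (Fin w)) (i : Fin w) (a : ZMod p) :
    onTop p σ (i, a) = (σ i, a) := rfl

theorem comp_apply (σ : Perm (Fin w)) (f : Fin w → ZMod p) (i : Fin w) (a : ZMod p) :
    (onTop p σ * shift f) (i, a) = (σ i, a + f i) := rfl

/-- The wreath product with a group of permutations of the first coordinate. -/
def wreath (p : ℕ) (Q : Subgroup (Perm (Fin w))) : Subgroup (Perm (Fin w × ZMod p)) where
  carrier := {π | ∃ σ ∈ Q, ∃ f : Fin w → ZMod p, π = onTop p σ * shift f}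
  one_mem' := ⟨1, Q.one_mem, 0, Equiv.ext fun ⟨i, a⟩ => by
    rw [comp_apply]; simp⟩
  mul_mem' := by
    rintro _ _ ⟨σ, hσ, f, rfl⟩ ⟨τ, hτ, g, rfl⟩
    refine ⟨σ * τ, Q.mul_mem hσ hτ, fun i => g i + f (τ i), Equiv.ext fun ⟨i, a⟩ => ?_⟩
    rw [comp_apply, Perm.mul_apply, comp_apply, comp_apply, Perm.mul_apply, add_assoc]
  inv_mem' := by
    rintro _ ⟨σ, hσ, f, rfl⟩
    refine ⟨σ⁻¹, Q.inv_mem hσ, fun i => -f (σ⁻¹ i), inv_eq_of_mul_eq_one_right
      (Equiv.ext fun ⟨i, a⟩ => ?_)⟩
    rw [Perm.mul_apply, comp_apply, comp_apply, ← Perm.mul_apply, mul_inv_cancel]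
    simp

theorem mem_wreath {Q : Subgroup (Perm (Fin w))} {π : Perm (Fin w × ZMod p)} :
    π ∈ wreath p Q ↔ ∃ σ ∈ Q, ∃ f : Fin w → ZMod p, π = onTop p σ * shift f := Iff.rfl

theorem onTop_mul_shift_mem {Q : Subgroup (Perm (Fin w))} {σ : Perm (Fin w)} (hσ : σ ∈ Q)
    (f : Fin w → ZMod p) : onTop p σ * shift f ∈ wreath p Q := ⟨σ, hσ, f, rfl⟩

theorem inj (σ τ : Perm (Fin w)) (f g : Fin w → ZMod p)
    (h : onTop p σ * shift f = onTop p τ * shift g) : σ = τ ∧ f = g := by
  have h' : ∀ i, (σ i, (0 : ZMod p) + f i) = (τ i, 0 + g i) := fun i => by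
    rw [← comp_apply σ f, ← comp_apply τ g, h]
  exact ⟨Equiv.ext fun i => (Prod.ext_iff.1 (h' i)).1,
    funext fun i => add_left_cancel (Prod.ext_iff.1 (h' i)).2⟩

theorem card_wreath [NeZero p] (Q : Subgroup (Perm (Fin w))) :
    Nat.card (wreath p Q) = Nat.card Q * p ^ w := by
  rw [show Nat.card (wreath p Q) = Nat.card (Q × (Fin w → ZMod p)) from
    (Nat.card_congr (Equiv.ofBijective
      (fun x : Q × (Fin w → ZMod p) =>
        (⟨_, onTop_mul_shift_mem x.1.2 x.2⟩ : wreath p Q)) ⟨fun x y e => ?_, fun π => ?_⟩)).symm,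
    Nat.card_prod, Nat.card_fun, Nat.card_fin, Nat.card_zmod]
  · obtain ⟨h1, h2⟩ := inj _ _ _ _ (congrArg Subtype.val e)
    exact Prod.ext (Subtype.ext h1) h2
  · obtain ⟨σ, hσ, f, h⟩ := π.2
    exact ⟨(⟨σ, hσ⟩, f), Subtype.ext h.symm⟩

theorem sign_addRight_one_two :
    Perm.sign (Equiv.addRight (1 : ZMod 2) : Perm (ZMod 2)) = -1 := by decide

variable [hp : Fact p.Prime]

theorem isPGroup_wreath {Q : Subgroup (Perm (Fin w))} (hQ : IsPGroup p Q) :
    IsPGroup p (wreath p Q) := by
  haveI : NeZero p := ⟨hp.out.ne_zero⟩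
  obtain ⟨k, hk⟩ := IsPGroup.iff_card.1 hQ
  exact IsPGroup.of_card (n := k + w) (by rw [card_wreath, hk, pow_add])

/-- The projection to the first coordinate. -/
noncomputable def top (Q : Subgroup (Perm (Fin w))) : wreath p Q →* Q :=
  MonoidHom.mk' (fun π => ⟨π.2.choose, π.2.choose_spec.1⟩) fun x y => Subtype.ext (by
    have hx := x.2.choose_spec.2.choose_spec
    have hy := y.2.choose_spec.2.choose_spec
    have hxy := (x * y).2.choose_spec.2.choose_spec
    show (x * y).2.choose = x.2.choose * y.2.choose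
    refine (inj _ _ _ (fun i => y.2.choose_spec.2.choose i +
      x.2.choose_spec.2.choose (y.2.choose i)) (hxy.symm.trans ?_)).1
    refine Equiv.ext fun z => ?_
    obtain ⟨i, a⟩ := z
    rw [Subgroup.coe_mul, comp_apply, Perm.mul_apply]
    conv_lhs => rw [hy, comp_apply, hx, comp_apply]
    rw [Perm.mul_apply, add_assoc])

/-- The translation part. -/
noncomputable def bottom {Q : Subgroup (Perm (Fin w))} (π : wreath p Q) : Fin w → ZMod p :=
  π.2.choose_spec.2.choose

theorem spec {Q : Subgroup (Perm (Fin w))} (π : wreath p Q) :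
    (π : Perm (Fin w × ZMod p)) = onTop p (top Q π : Perm (Fin w)) * shift (bottom π) :=
  π.2.choose_spec.2.choose_spec

theorem top_mk {Q : Subgroup (Perm (Fin w))} {σ : Perm (Fin w)} (hσ : σ ∈ Q)
    (f : Fin w → ZMod p) :
    (top Q ⟨_, onTop_mul_shift_mem hσ f⟩ : Perm (Fin w)) = σ ∧
      bottom (⟨_, onTop_mul_shift_mem hσ f⟩ : wreath p Q) = f :=
  inj _ _ _ _ (spec _).symm

theorem top_surjective (Q : Subgroup (Perm (Fin w))) : Function.Surjective (top (p := p) Q) :=
  fun σ => ⟨⟨_, onTop_mul_shift_mem σ.2 0⟩, Subtype.ext (top_mk σ.2 0).1⟩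

theorem bottom_mul {Q : Subgroup (Perm (Fin w))} (x y : wreath p Q) (i : Fin w) :
    bottom (x * y) i = bottom y i + bottom x ((top Q y : Perm (Fin w)) i) := by
  have h : ((x * y : wreath p Q) : Perm (Fin w × ZMod p)) =
      onTop p ((top Q x : Perm (Fin w)) * (top Q y : Perm (Fin w))) *
        shift (fun i => bottom y i + bottom x ((top Q y : Perm (Fin w)) i)) := by
    rw [Subgroup.coe_mul, spec x, spec y]
    refine Equiv.ext fun ⟨j, a⟩ => ?_
    rw [Perm.mul_apply, comp_apply, comp_apply, comp_apply, Perm.mul_apply, add_assoc]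
  rw [spec (x * y)] at h
  exact congrFun (inj _ _ _ _ h).2 i

theorem sign_onTop_mul_shift (σ : Perm (Fin w)) (f : Fin w → ZMod p) :
    Perm.sign (onTop p σ * shift f) =
      Perm.sign σ ^ p * ∏ i, Perm.sign (Equiv.addRight (f i) : Perm (ZMod p)) := by
  haveI : NeZero p := ⟨hp.out.ne_zero⟩
  rw [map_mul, onTop, shift, Perm.sign_prodCongrLeft, Perm.sign_prodCongrRight,
    prod_const, card_univ, ZMod.card]

theorem card_wreath_inf_alt_two (hp2 : p = 2) (hw : 1 ≤ w)
    (Q : Subgroup (Perm (Fin w))) :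
    2 * Nat.card (wreath p Q ⊓ alternatingGroup (Fin w × ZMod p) : Subgroup _) =
      Nat.card (wreath p Q) := by
  classical
  subst hp2
  set f : wreath 2 Q →* ℤˣ := Perm.sign.comp (wreath 2 Q).subtype with hf
  have hker : Nat.card f.ker =
      Nat.card (wreath 2 Q ⊓ alternatingGroup (Fin w × ZMod 2) : Subgroup _) :=
    Nat.card_congr ⟨fun a => ⟨(a : wreath 2 Q), (a : wreath 2 Q).2,
      Perm.mem_alternatingGroup.2 (by
        have h : f (a : wreath 2 Q) = 1 := MonoidHom.mem_ker.1 a.2
        simp only [hf, MonoidHom.comp_apply, Subgroup.coe_subtype] at h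
        convert h)⟩,
      fun a => ⟨⟨a, a.2.1⟩, MonoidHom.mem_ker.2 (by
        rw [hf, MonoidHom.comp_apply, Subgroup.coe_subtype]
        convert Perm.mem_alternatingGroup.1 a.2.2)⟩,
      fun _ => rfl, fun _ => rfl⟩
  set i₀ : Fin w := ⟨0, hw⟩
  have hsurj : Function.Surjective f := by
    intro u
    rcases Int.units_eq_one_or u with rfl | rfl
    · exact ⟨1, map_one f⟩
    · refine ⟨⟨_, onTop_mul_shift_mem (p := 2) Q.one_mem (Pi.single i₀ 1)⟩, ?_⟩
      show Perm.sign (onTop 2 1 * shift (Pi.single i₀ (1 : ZMod 2))) = -1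
      rw [sign_onTop_mul_shift, map_one, one_pow, one_mul, prod_eq_single i₀]
      · rw [Pi.single_eq_same, sign_addRight_one_two]
      · intro i _ hi
        rw [Pi.single_eq_of_ne hi, Equiv.addRight_zero]; exact map_one _
      · intro h; exact absurd (mem_univ _) h
  have h2 := f.ker.card_mul_index
  rw [hker, Subgroup.index_ker, MonoidHom.range_eq_top.2 hsurj, Subgroup.card_top,
    Nat.card_eq_fintype_card (α := ℤˣ), Fintype.card_units_int] at h2
  rw [← h2, mul_comm]

/-- A non-invariant linear character of a normal subgroup of index `p` gives degree `p`. -/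
theorem exists_degree_prime {P : Type*} [Group P] [Finite P] (hP : IsPGroup p P) {K : Subgroup P}
    (hK : K.index = p) (μ : K →* ℂˣ) {t : P} {k k' : K}
    (hk : (k' : P) = t * (k : P) * t⁻¹) (hne : μ k' ≠ μ k) :
    ∃ χ : IrrCharacter P, charDegree (χ : P → ℂ) = p := by
  classical
  haveI := Fintype.ofFinite P
  haveI := Fintype.ofFinite (IrrCharacter P)
  have hμ := isIrrCharacter_linear μ
  obtain ⟨m, hm⟩ := IsCharacter.exists_sum
    (Frobenius.isCharacter_indFun K _ (IsIrrCharacter.isCharacter hμ))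
  have h1 : indFun K (fun k => (μ k : ℂ)) 1 = (p : ℂ) := by
    rw [Frobenius.indFun_one, hK, map_one, Units.val_one, mul_one]
  obtain ⟨χ, hχ⟩ : ∃ χ, m χ ≠ 0 := by
    by_contra hall
    push Not at hall
    rw [hm] at h1
    simp only [hall, Nat.cast_zero, zero_smul, sum_const_zero, Pi.zero_apply] at h1
    exact hp.out.ne_zero (Nat.cast_eq_zero.1 h1.symm)
  refine ⟨χ, ?_⟩
  have hdeg : ∀ ψ : IrrCharacter P, (ψ : P → ℂ) 1 = (charDegree (ψ : P → ℂ) : ℂ) :=
    fun ψ => (Blocks.charDegree_cast ψ).symm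
  have hsum : ∑ ψ, m ψ * charDegree (ψ : P → ℂ) = p := by
    have h := congrFun hm 1
    rw [h1] at h
    simp only [Finset.sum_apply, Pi.smul_apply, smul_eq_mul, hdeg] at h
    exact_mod_cast h.symm
  have hle : charDegree (χ : P → ℂ) ≤ p := by
    calc charDegree (χ : P → ℂ) ≤ m χ * charDegree (χ : P → ℂ) :=
          Nat.le_mul_of_pos_left _ (Nat.pos_of_ne_zero hχ)
      _ ≤ p := hsum ▸ single_le_sum (f := fun ψ => m ψ * charDegree (ψ : P → ℂ))
          (fun _ _ => Nat.zero_le _) (mem_univ χ)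
  obtain ⟨e, he⟩ := IsPGroup.iff_card.1 hP
  obtain ⟨j, -, hj⟩ := (Nat.dvd_prime_pow hp.out).1 (he ▸ Blocks.charDegree_dvd_card χ)
  rcases Nat.lt_or_ge j 2 with hj2 | hj2
  · rcases (show j = 0 ∨ j = 1 by omega) with rfl | rfl
    · exfalso
      apply hne
      have hin : classInner (indFun K fun k => (μ k : ℂ)) (χ : P → ℂ) = (m χ : ℂ) := by
        rw [hm]; exact classInner_sum_irr (fun ψ => (m ψ : ℂ)) χ
      rw [Frobenius.classInner_indFun K _ _ (IsIrrCharacter.isClassFunction χ.2)] at hin
      obtain ⟨n, ρ, hρ, hρχ⟩ := χ.2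
      have hn : n = 1 := by
        have h := congrFun hρχ 1
        rw [Representation.char_one, hdeg, hj, pow_zero, Nat.cast_one,
          Module.finrank_fin_fun] at h
        exact_mod_cast h
      have hlin : ∀ x y : P, (χ : P → ℂ) (x * y) = (χ : P → ℂ) x * (χ : P → ℂ) y := by
        intro x y
        subst hn
        rw [← hρχ]
        have key : ∀ T : (Fin 1 → ℂ) →ₗ[ℂ] (Fin 1 → ℂ),
            LinearMap.trace ℂ (Fin 1 → ℂ) T = T 1 0 := by
          intro T
          rw [LinearMap.trace_eq_matrix_trace ℂ (Pi.basisFun ℂ (Fin 1)), Matrix.trace_fin_one,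
            LinearMap.toMatrix_apply, Pi.basisFun_repr]
          rw [show (Pi.basisFun ℂ (Fin 1)) 0 = (1 : Fin 1 → ℂ) from funext fun i => by
            rw [Pi.basisFun_apply, Subsingleton.elim i 0, Pi.single_eq_same, Pi.one_apply]]
        show LinearMap.trace ℂ _ (ρ (x * y)) = _
        rw [key, map_mul, Representation.character, Representation.character, key, key,
          Module.End.mul_apply,
          show ρ y 1 = (ρ y 1 0) • (1 : Fin 1 → ℂ) from funext fun i => by
            rw [Subsingleton.elim i 0]; simp, map_smul]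
        simp [mul_comm]
      have hirr : IsIrrCharacter K fun k : K => (χ : P → ℂ) k := by
        have h1' : (χ : P → ℂ) 1 = 1 := by rw [hdeg, hj, pow_zero, Nat.cast_one]
        have hne0 : ∀ x : P, (χ : P → ℂ) x ≠ 0 := fun x h0 => by
          have := hlin x x⁻¹
          rw [mul_inv_cancel, h1', h0, zero_mul] at this
          exact one_ne_zero this
        exact isIrrCharacter_linear
          { toFun := fun k : K => Units.mk0 ((χ : P → ℂ) k) (hne0 _)
            map_one' := Units.ext (by simpa using h1')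
            map_mul' := fun a b => Units.ext (by simpa using hlin a b) }
      have heq : (fun k : K => (μ k : ℂ)) = fun k : K => (χ : P → ℂ) k := by
        by_contra hd
        rw [classInner_eq_zero_of_ne hμ hirr hd] at hin
        exact hχ (Nat.cast_eq_zero.1 hin.symm)
      refine Units.ext ?_
      rw [congrFun heq k', congrFun heq k, hk]
      exact IsIrrCharacter.isClassFunction χ.2 _ _
    · rw [hj, pow_one]
  · exfalso
    have := Nat.pow_le_pow_right hp.out.pos hj2
    have := hp.out.two_le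
    nlinarith

/-- A proper subgroup of a `p`-group lies in a normal subgroup of index `p`. -/
theorem exists_normal_index {P : Type*} [Group P] [Finite P] (hP : IsPGroup p P) {H : Subgroup P}
    (hH : H ≠ ⊤) : ∃ M : Subgroup P, H ≤ M ∧ M.Normal ∧ M.index = p := by
  obtain ⟨M, hM, hHM⟩ := (eq_top_or_exists_le_coatom H).resolve_left hH
  haveI := hP.isNilpotent
  haveI hMn : M.Normal :=
    Subgroup.NormalizerCondition.normal_of_coatom M Group.normalizerCondition_of_isNilpotent hM
  refine ⟨M, hHM, hMn, ?_⟩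
  have hQ := hP.to_quotient M
  haveI : Nontrivial (P ⧸ M) := QuotientGroup.nontrivial_iff.2 hM.1
  obtain ⟨k, hk, hcard⟩ := (IsPGroup.nontrivial_iff_card hQ).1 inferInstance
  obtain ⟨x, hx⟩ := exists_prime_orderOf_dvd_card' (G := P ⧸ M) p
    (hcard ▸ dvd_pow_self p (by omega))
  set L := (Subgroup.zpowers x).comap (QuotientGroup.mk' M) with hL
  have hML : M < L := by
    refine lt_of_le_of_ne (fun m hm => ?_) fun e => ?_
    · rw [hL, Subgroup.mem_comap, show QuotientGroup.mk' M m = 1 from (QuotientGroup.eq_one_iff m).2 hm]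
      exact Subgroup.one_mem _
    · obtain ⟨y, hy⟩ := QuotientGroup.mk'_surjective M x
      have hyM : y ∈ M := by rw [e, hL, Subgroup.mem_comap, hy]; exact Subgroup.mem_zpowers x
      rw [show QuotientGroup.mk' M y = 1 from (QuotientGroup.eq_one_iff y).2 hyM] at hy
      rw [← hy, orderOf_one] at hx
      exact hp.out.one_lt.ne hx
  have htop := hM.2 L hML
  rw [hL, ← Subgroup.comap_top (QuotientGroup.mk' M)] at htop
  have htop' := Subgroup.comap_injective (QuotientGroup.mk'_surjective M) htop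
  rw [Subgroup.index_eq_card, ← Subgroup.card_top, ← htop', Nat.card_zpowers, hx]

/-- A group between the even part and the whole of a wreath product over a group moving a point
has a character of degree `p`, given a translation that is not invariant. -/
theorem exists_degree_prime_wreath {Q : Subgroup (Perm (Fin w))} (hQ : IsPGroup p Q)
    {P : Subgroup (Perm (Fin w × ZMod p))} (hle : P ≤ wreath p Q)
    (hge : wreath p Q ⊓ alternatingGroup (Fin w × ZMod p) ≤ P)
    {i₀ : Fin w} (hmove : ∃ σ ∈ Q, σ i₀ ≠ i₀)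
    (htrans : p = 2 → (∃ j₀, ∀ σ ∈ Q, σ i₀ ≠ j₀) ∨
      onTop p 1 * shift (Pi.single i₀ 1) ∈ P) :
    ∃ χ : IrrCharacter ↥P, charDegree (χ : ↥P → ℂ) = p := by
  classical
  haveI : NeZero p := ⟨hp.out.ne_zero⟩
  have hQi : MulAction.stabilizer Q i₀ ≠ ⊤ := by
    obtain ⟨σ, hσ, hne⟩ := hmove
    intro e
    exact hne (show (⟨σ, hσ⟩ : Q) • i₀ = i₀ from MulAction.mem_stabilizer_iff.1 (e ▸ trivial))
  obtain ⟨M, hstab, hMn, hMi⟩ := exists_normal_index hQ hQi
  obtain ⟨t, ht⟩ : ∃ t : Q, t ∉ M := by
    by_contra hall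
    push Not at hall
    rw [show M = ⊤ from eq_top_iff.2 fun x _ => hall x, Subgroup.index_top] at hMi
    exact hp.out.one_lt.ne hMi
  set O : Finset (Fin w) := univ.filter fun i => ∃ m : Q, m ∈ M ∧ (m : Perm (Fin w)) i₀ = i with hO
  have hOinv : ∀ m : Q, m ∈ M → ∀ i, i ∈ O → (m : Perm (Fin w)) i ∈ O := by
    intro m hm i hi
    obtain ⟨m', hm', rfl⟩ := (mem_filter.1 hi).2
    exact mem_filter.2 ⟨mem_univ _, m * m', M.mul_mem hm hm', rfl⟩
  have hi₀O : i₀ ∈ O := mem_filter.2 ⟨mem_univ _, 1, M.one_mem, rfl⟩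
  have htO : (t : Perm (Fin w)) i₀ ∉ O := by
    intro h
    obtain ⟨m, hm, he⟩ := (mem_filter.1 h).2
    have hs : m⁻¹ * t ∈ MulAction.stabilizer Q i₀ := by
      rw [MulAction.mem_stabilizer_iff, mul_smul, inv_smul_eq_iff]
      exact he.symm
    have := M.mul_mem hm (hstab hs)
    rw [mul_inv_cancel_left] at this
    exact ht this
  let top' : P →* Q := (top Q).comp (Subgroup.inclusion hle)
  have htopv : ∀ (x : P) {σ : Perm (Fin w)} (_ : σ ∈ Q) {f : Fin w → ZMod p},
      (x : Perm (Fin w × ZMod p)) = onTop p σ * shift f →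
        (top' x : Perm (Fin w)) = σ ∧ bottom (Subgroup.inclusion hle x : wreath p Q) = f := by
    intro x σ _ f hx
    exact inj _ _ _ _ ((spec (Subgroup.inclusion hle x : wreath p Q)).symm.trans hx)
  have hlift : ∀ σ ∈ Q, onTop p σ * shift (0 : Fin w → ZMod p) ∈ P ∨ p = 2 := by
    intro σ hσ
    by_cases h2 : p = 2
    · exact Or.inr h2
    · refine Or.inl (hge ⟨onTop_mul_shift_mem hσ 0, ?_⟩)
      have hodd := hp.out.odd_of_ne_two h2
      have hone : Perm.sign σ = 1 := by
        obtain ⟨k, hk⟩ := IsPGroup.iff_orderOf.1 hQ ⟨σ, hσ⟩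
        rw [Subgroup.orderOf_mk] at hk
        have h := congrArg Perm.sign (pow_orderOf_eq_one σ)
        rw [map_pow, map_one, hk] at h
        rcases Int.units_eq_one_or (Perm.sign σ) with h' | h'
        · exact h'
        · rw [h', Odd.neg_one_pow hodd.pow] at h
          exact absurd h (by decide)
      refine Perm.mem_alternatingGroup.2 ?_
      convert sign_onTop_mul_shift σ (0 : Fin w → ZMod p)
      rw [hone, one_pow, one_mul]
      exact (prod_eq_one fun i _ => by rw [Pi.zero_apply, Equiv.addRight_zero]; exact map_one _).symm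
  have hlift' : ∀ σ ∈ Q, onTop p σ * shift (0 : Fin w → ZMod p) ∈ P := by
    intro σ hσ
    rcases hlift σ hσ with h | h2
    · exact h
    · subst h2
      refine hge ⟨onTop_mul_shift_mem hσ 0, Perm.mem_alternatingGroup.2 ?_⟩
      convert sign_onTop_mul_shift σ (0 : Fin w → ZMod 2)
      rw [Int.units_sq, one_mul]
      exact (prod_eq_one fun i _ => by rw [Pi.zero_apply, Equiv.addRight_zero]; exact map_one _).symm
  have hsurj : Function.Surjective top' := fun σ =>
    ⟨⟨_, hlift' σ σ.2⟩, Subtype.ext (htopv _ σ.2 rfl).1⟩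
  set K : Subgroup P := M.comap top' with hK
  have hKi : K.index = p := by rw [hK, Subgroup.index_comap_of_surjective _ hsurj, hMi]
  let lam : K →* Multiplicative (ZMod p) :=
    { toFun := fun x => Multiplicative.ofAdd
        (∑ i ∈ O, bottom (Subgroup.inclusion hle (x : P) : wreath p Q) i)
      map_one' := by
        have h := (htopv (1 : P) Q.one_mem (f := 0)
          (Equiv.ext fun ⟨i, a⟩ => by rw [comp_apply]; simp)).2
        rw [Subgroup.coe_one, h]
        simp
      map_mul' := fun x y => by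
        rw [← ofAdd_add, Subgroup.coe_mul, map_mul]
        congr 1
        rw [sum_congr rfl fun i _ => bottom_mul _ _ i, sum_add_distrib, add_comm]
        congr 1
        refine sum_bij' (fun i _ => (top' (y : P) : Perm (Fin w)) i)
          (fun i _ => ((top' (y : P) : Perm (Fin w)))⁻¹ i) (fun i hi => hOinv _ y.2 i hi)
          (fun i hi => by
            have := hOinv _ (M.inv_mem y.2) i hi
            simpa using this) (fun i _ => by simp) (fun i _ => by simp) fun i _ => rfl }
  obtain ⟨ξ, hξ⟩ : ∃ ξ : ℂˣ, IsPrimitiveRoot ξ p := by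
    have h := Complex.isPrimitiveRoot_exp p hp.out.ne_zero
    exact ⟨(h.isUnit hp.out.ne_zero).unit, IsPrimitiveRoot.coe_units_iff.1 (by simpa using h)⟩
  let emb : Multiplicative (ZMod p) →* ℂˣ :=
    { toFun := fun a => ξ ^ (Multiplicative.toAdd a).val
      map_one' := by simp
      map_mul' := fun a b => by
        rw [← pow_add, toAdd_mul, ZMod.val_add, ← pow_mod_orderOf ξ (_ + _), ← hξ.eq_orderOf] }
  have hPp : IsPGroup p P := (isPGroup_wreath hQ).to_le hle
  -- a translation moved off `O` by `t`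
  obtain ⟨f, hfP, hf1, hf2⟩ : ∃ f : Fin w → ZMod p, onTop p 1 * shift f ∈ P ∧
      ∑ i ∈ O, f i = 1 ∧ ∑ i ∈ O, f ((t : Perm (Fin w))⁻¹ i) = 0 := by
    by_cases h2 : p = 2
    · subst h2
      rcases htrans rfl with ⟨j₀, hj⟩ | hmem
      swap
      · refine ⟨Pi.single i₀ 1, hmem, ?_, ?_⟩
        · simp [sum_ite_eq', Pi.single_apply, hi₀O]
        · refine sum_eq_zero fun i hi => Pi.single_eq_of_ne (fun e => htO ?_) _
          rw [← e]
          simpa using hi
      have hjO : j₀ ∉ O := fun h => by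
        obtain ⟨m, -, he⟩ := (mem_filter.1 h).2
        exact hj m m.2 he
      have htj : ∀ i ∈ O, (t : Perm (Fin w))⁻¹ i ≠ j₀ ∧ (t : Perm (Fin w))⁻¹ i ≠ i₀ := by
        intro i hi
        obtain ⟨m, -, he⟩ := (mem_filter.1 hi).2
        refine ⟨fun e => hj _ (Q.mul_mem (Q.inv_mem t.2) m.2) (by rw [Perm.mul_apply, he, e]),
          fun e => htO ?_⟩
        rw [← e]
        simpa using hi
      have hij : i₀ ≠ j₀ := fun e => hjO (e ▸ hi₀O)
      refine ⟨(Pi.single i₀ 1 : Fin w → ZMod 2) + Pi.single j₀ 1, hge ⟨onTop_mul_shift_mem Q.one_mem _,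
        Perm.mem_alternatingGroup.2 ?_⟩, ?_, ?_⟩
      · convert sign_onTop_mul_shift (1 : Perm (Fin w))
          ((Pi.single i₀ 1 : Fin w → ZMod 2) + Pi.single j₀ 1)
        rw [map_one, one_pow, one_mul, ← prod_subset (subset_univ {i₀, j₀}) fun i _ hi => by
          simp only [mem_insert, mem_singleton, not_or] at hi
          rw [Pi.add_apply, Pi.single_eq_of_ne hi.1, Pi.single_eq_of_ne hi.2, add_zero,
            Equiv.addRight_zero]
          exact map_one _, prod_pair hij]
        simp only [Pi.add_apply, Pi.single_eq_same, Pi.single_eq_of_ne hij,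
          Pi.single_eq_of_ne hij.symm, add_zero, zero_add]
        rw [sign_addRight_one_two]; decide
      · simp only [Pi.add_apply, sum_add_distrib, Pi.single_apply, sum_ite_eq', if_pos hi₀O,
          if_neg hjO, add_zero]
      · refine sum_eq_zero fun i hi => ?_
        rw [Pi.add_apply, Pi.single_eq_of_ne (htj i hi).2, Pi.single_eq_of_ne (htj i hi).1,
          add_zero]
    · refine ⟨Pi.single i₀ 1, hge ⟨onTop_mul_shift_mem Q.one_mem _, ?_⟩, ?_, ?_⟩
      · refine Perm.mem_alternatingGroup.2 ?_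
        have hodd := hp.out.odd_of_ne_two h2
        convert sign_onTop_mul_shift (1 : Perm (Fin w)) (Pi.single i₀ (1 : ZMod p))
        rw [map_one, one_pow, one_mul]
        refine (prod_eq_one fun i _ => ?_).symm
        set a := (Pi.single i₀ (1 : ZMod p) : Fin w → ZMod p) i
        have h : (Equiv.addRight a : Perm (ZMod p)) ^ p = 1 := by
          have key : ∀ k : ℕ, (Equiv.addRight a : Perm (ZMod p)) ^ k = Equiv.addRight (k • a) := by
            intro k
            induction k with
            | zero => rw [pow_zero, zero_smul, Equiv.addRight_zero]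
            | succ k ih =>
              rw [pow_succ, ih]
              refine Equiv.ext fun x => ?_
              simp only [Perm.mul_apply, Equiv.coe_addRight, nsmul_eq_mul, Nat.cast_succ]
              ring
          rw [key, nsmul_eq_mul, ZMod.natCast_self, zero_mul, Equiv.addRight_zero]
        have h' := congrArg Perm.sign h
        rw [map_pow, map_one] at h'
        rcases Int.units_eq_one_or (Perm.sign (Equiv.addRight a : Perm (ZMod p))) with h'' | h''
        · exact h''
        · rw [h'', Odd.neg_one_pow hodd] at h'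
          exact absurd h' (by decide)
      · simp [sum_ite_eq', Pi.single_apply, hi₀O]
      · refine sum_eq_zero fun i hi => Pi.single_eq_of_ne (fun e => htO ?_) _
        rw [← e]
        simpa using hi
  set tP : P := ⟨_, hlift' t t.2⟩ with htP
  set kP : P := ⟨_, hfP⟩ with hkP
  have hkK : kP ∈ K := by
    rw [hK, Subgroup.mem_comap, show top' kP = 1 from Subtype.ext (htopv kP Q.one_mem rfl).1]
    exact M.one_mem
  have hconj : ((tP * kP * tP⁻¹ : P) : Perm (Fin w × ZMod p)) =
      onTop p 1 * shift (fun i => f ((t : Perm (Fin w))⁻¹ i)) := by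
    rw [Subgroup.coe_mul, Subgroup.coe_mul, Subgroup.coe_inv, mul_inv_eq_iff_eq_mul]
    refine Equiv.ext fun ⟨i, a⟩ => ?_
    simp [htP, hkP, onTop, shift]
  have hk'K : tP * kP * tP⁻¹ ∈ K := by
    rw [hK, Subgroup.mem_comap, show top' (tP * kP * tP⁻¹) = 1 from
      Subtype.ext (htopv _ Q.one_mem hconj).1]
    exact M.one_mem
  refine exists_degree_prime hPp hKi (emb.comp lam) (t := tP) (k := ⟨kP, hkK⟩)
    (k' := ⟨_, hk'K⟩) rfl ?_
  intro e
  simp only [MonoidHom.comp_apply, MonoidHom.coe_mk, OneHom.coe_mk, emb, lam, toAdd_ofAdd,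
    (htopv kP Q.one_mem rfl).2, (htopv _ Q.one_mem hconj).2, hf1, hf2, ZMod.val_zero,
    ZMod.val_one, pow_zero, pow_one] at e
  exact hξ.ne_one hp.out.one_lt e.symm

/-- Inflation of a degree along a surjection. -/
theorem exists_degree_comp {A B : Type*} [Group A] [Finite A] [Group B] [Finite B] (π : A →* B)
    (hπ : Function.Surjective π) {d : ℕ} (χ : IrrCharacter B)
    (hd : charDegree (χ : B → ℂ) = d) :
    ∃ ψ : IrrCharacter A, charDegree (ψ : A → ℂ) = d := by
  haveI := Fintype.ofFinite A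
  haveI := Fintype.ofFinite B
  refine ⟨⟨fun a => (χ : B → ℂ) (π a), ?_⟩, ?_⟩
  · rw [isIrrCharacter_iff_norm_one (CharDegreesTheory.isCharacter_comp_hom
      (IsIrrCharacter.isCharacter χ.2) π)]
    have h := classInner_self_of_isIrr χ.2
    rw [← h, classInner, classInner]
    classical
    rw [← sum_fiberwise univ π]
    have hfib : ∀ b : B, ((univ.filter fun a => π a = b).card : ℂ) = (Nat.card π.ker : ℂ) := by
      intro b
      obtain ⟨a₀, rfl⟩ := hπ b
      rw [Nat.cast_inj, ← Fintype.card_subtype, ← Nat.card_eq_fintype_card]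
      exact Nat.card_congr ⟨fun a => ⟨a₀⁻¹ * a, by rw [MonoidHom.mem_ker, map_mul, map_inv, a.2,
        inv_mul_cancel]⟩, fun k => ⟨a₀ * k, by rw [map_mul, MonoidHom.mem_ker.1 k.2, mul_one]⟩,
        fun a => Subtype.ext (mul_inv_cancel_left _ _), fun k => Subtype.ext (inv_mul_cancel_left _ _)⟩
    rw [sum_congr rfl fun b _ => (sum_congr rfl fun a ha => by rw [(mem_filter.1 ha).2] :
      ∑ a ∈ univ.filter (fun a => π a = b), (χ : B → ℂ) (π a) *
        (starRingEnd ℂ) ((χ : B → ℂ) (π a)) =
      ∑ _a ∈ univ.filter (fun a => π a = b), (χ : B → ℂ) b * (starRingEnd ℂ) ((χ : B → ℂ) b))]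
    simp only [sum_const, nsmul_eq_mul, hfib, ← mul_sum]
    have hcard : Nat.card A = Nat.card π.ker * Nat.card B := by
      rw [← π.ker.card_mul_index, Subgroup.index_ker, MonoidHom.range_eq_top.2 hπ,
        Subgroup.card_top]
    have hk : (Nat.card π.ker : ℂ) ≠ 0 := Nat.cast_ne_zero.2 Nat.card_pos.ne'
    rw [hcard, Nat.cast_mul]
    field_simp
  · simpa [charDegree] using hd

end CfsgLib.SymChar.Wreath
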